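import Mathlib

/-!
A cubic polynomial in three variables with anisotropic leading form has a zero (Chevalley--Warning),
and the form of this statement for additive characters on a cubic extension.
-/

set_option autoImplicit false
set_option linter.unusedSectionVars false
set_option linter.unusedVariables false

namespace Cfsg.Agent.Lib.MinD4.CW

open MvPolynomial Module
open scoped BigOperators

variable {k : Type*} [Field k] [Fintype k]

/-- The homogenised polynomial. -/
noncomputable def homP (l : k) (A : Fin 3 → k) (B : Fin 3 → Fin 3 → k) (C' : Fin 3 → Fin 3 → Fin 3 → k) :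
    MvPolynomial (Option (Fin 3)) k :=
  C l * X none ^ 3 + ∑ i, C (A i) * X none ^ 2 * X (some i) +
    ∑ i, ∑ j, C (B i j) * X none * X (some i) * X (some j) +
    ∑ i, ∑ j, ∑ m, C (C' i j m) * X (some i) * X (some j) * X (some m)

lemma homP_homog (l : k) (A : Fin 3 → k) (B : Fin 3 → Fin 3 → k) (C' : Fin 3 → Fin 3 → Fin 3 → k) :
    (homP l A B C').IsHomogeneous 3 := by
  have hC : ∀ c : k, (C c : MvPolynomial (Option (Fin 3)) k).IsHomogeneous 0 := fun c => isHomogeneous_C _ c
  have hX : ∀ s : Option (Fin 3), (X s : MvPolynomial (Option (Fin 3)) k).IsHomogeneous 1 := fun s => isHomogeneous_X _ s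
  refine IsHomogeneous.add (IsHomogeneous.add (IsHomogeneous.add ?_ ?_) ?_) ?_
  · simpa using (hC l).mul ((hX none).pow 3)
  · refine IsHomogeneous.sum _ _ _ fun i _ => ?_
    simpa using ((hC (A i)).mul ((hX none).pow 2)).mul (hX (some i))
  · refine IsHomogeneous.sum _ _ _ fun i _ => IsHomogeneous.sum _ _ _ fun j _ => ?_
    simpa using (((hC (B i j)).mul (hX none)).mul (hX (some i))).mul (hX (some j))
  · refine IsHomogeneous.sum _ _ _ fun i _ => IsHomogeneous.sum _ _ _ fun j _ => IsHomogeneous.sum _ _ _ fun m _ => ?_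
    simpa using (((hC (C' i j m)).mul (hX (some i))).mul (hX (some j))).mul (hX (some m))

lemma eval_homP (l : k) (A : Fin 3 → k) (B : Fin 3 → Fin 3 → k) (C' : Fin 3 → Fin 3 → Fin 3 → k)
    (x : Option (Fin 3) → k) :
    eval x (homP l A B C') = l * x none ^ 3 + ∑ i, A i * x none ^ 2 * x (some i) +
      ∑ i, ∑ j, B i j * x none * x (some i) * x (some j) +
      ∑ i, ∑ j, ∑ m, C' i j m * x (some i) * x (some j) * x (some m) := by
  simp [homP, map_sum]

/-- A cubic polynomial in three variables whose leading form has only the trivial zero has a zero. -/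
theorem exists_zero_cubic (l : k) (A : Fin 3 → k) (B : Fin 3 → Fin 3 → k) (C' : Fin 3 → Fin 3 → Fin 3 → k)
    (hC' : ∀ t : Fin 3 → k, t ≠ 0 → ∑ i, ∑ j, ∑ m, C' i j m * t i * t j * t m ≠ 0) :
    ∃ t : Fin 3 → k, l + ∑ i, A i * t i + ∑ i, ∑ j, B i j * t i * t j +
      ∑ i, ∑ j, ∑ m, C' i j m * t i * t j * t m = 0 := by
  classical
  obtain ⟨p, hp⟩ := CharP.exists k
  haveI hpp : Fact p.Prime := ⟨(CharP.char_is_prime_or_zero k p).resolve_right (fun h => by
    subst h
    exact (CharP.ringChar_ne_zero_of_finite k) (by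
      have := ringChar.eq k 0
      exact this.symm ▸ rfl))⟩
  set P := homP l A B C' with hP
  have hdeg : P.totalDegree < Fintype.card (Option (Fin 3)) := by
    have h1 : P.totalDegree ≤ 3 := (homP_homog l A B C').totalDegree_le
    have h2 : Fintype.card (Option (Fin 3)) = 4 := by simp
    omega
  have hdvd := char_dvd_card_solutions (K := k) p hdeg
  have h0 : eval (0 : Option (Fin 3) → k) P = 0 := by
    rw [hP, eval_homP]
    simp
  have hex : ∃ x : { x : Option (Fin 3) → k // eval x P = 0 }, x ≠ ⟨0, h0⟩ := by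
    by_contra hc
    push Not at hc
    have h1 : Fintype.card { x : Option (Fin 3) → k // eval x P = 0 } = 1 :=
      Fintype.card_eq_one_iff.mpr ⟨⟨0, h0⟩, hc⟩
    rw [h1] at hdvd
    exact hpp.out.one_lt.ne' (Nat.dvd_one.mp hdvd)
  obtain ⟨⟨x, hx⟩, hne⟩ := hex
  have hne' : x ≠ 0 := fun h => hne (Subtype.ext h)
  rw [hP, eval_homP] at hx
  set t : Fin 3 → k := fun i => x (some i) with ht
  by_cases hz : x none = 0
  · have ht0 : t ≠ 0 := by
      intro h
      apply hne'
      funext s
      cases s with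
      | none => exact hz
      | some i => exact congrFun h i
    apply absurd _ (hC' t ht0)
    simpa [hz] using hx
  · set ζ := x none with hζ
    refine ⟨fun i => t i / ζ, ?_⟩
    have h3 : ζ ^ 3 ≠ 0 := pow_ne_zero _ hz
    apply mul_left_cancel₀ h3
    rw [mul_zero]
    rw [← hx]
    simp only [mul_add, Finset.mul_sum]
    congr 1
    · congr 1
      · congr 1
        · ring
        · refine Finset.sum_congr rfl fun i _ => ?_
          simp only [ht]
          field_simp
      · refine Finset.sum_congr rfl fun i _ => Finset.sum_congr rfl fun j _ => ?_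
        simp only [ht]
        field_simp
    · refine Finset.sum_congr rfl fun i _ => Finset.sum_congr rfl fun j _ => Finset.sum_congr rfl fun m _ => ?_
      simp only [ht]
      field_simp

section Char

variable {K : Type*} [Field K] [Algebra k K]

/-- A character of `k` is a multiple of a nontrivial one. -/
lemma exists_mulShift (ψ : AddChar k ℂ) (hψ : ψ ≠ 1) (χ : AddChar k ℂ) : ∃ c : k, ∀ a, χ a = ψ (c * a) := by
  classical
  have hprim := AddChar.IsPrimitive.of_ne_one hψ
  have hinj : Function.Injective (fun c : k => AddChar.mulShift ψ c) := by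
    intro c d hcd
    by_contra hne
    apply hprim (sub_ne_zero.mpr hne)
    ext a
    have h1 := congrArg (fun f : AddChar k ℂ => f a) hcd
    simp only [AddChar.mulShift_apply] at h1 ⊢
    have e : (c - d) * a = c * a + (-(d * a)) := by ring
    rw [e, AddChar.map_add_eq_mul, h1, ← AddChar.map_add_eq_mul]
    simp
  have hbij : Function.Bijective (fun c : k => AddChar.mulShift ψ c) := by
    rw [Fintype.bijective_iff_injective_and_card]
    refine ⟨hinj, ?_⟩
    exact (AddChar.card_eq (α := k)).symm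
  obtain ⟨c, hc⟩ := hbij.2 χ
  refine ⟨c, fun a => ?_⟩
  rw [← hc]
  simp [AddChar.mulShift_apply]

/-- A character of `K` in the coordinates of a basis. -/
lemma exists_coords (ψ : AddChar k ℂ) (hψ : ψ ≠ 1) (e : Basis (Fin 3) k K) (χ : AddChar K ℂ) :
    ∃ c : Fin 3 → k, ∀ u, χ u = ψ (∑ i, c i * e.repr u i) := by
  have h1 : ∀ i, ∃ c : k, ∀ a : k, χ (a • e i) = ψ (c * a) := by
    intro i
    let χ' : AddChar k ℂ :=
      { toFun := fun a => χ (a • e i)
        map_zero_eq_one' := by simp
        map_add_eq_mul' := fun a b => by rw [add_smul, AddChar.map_add_eq_mul] }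
    exact exists_mulShift ψ hψ χ'
  choose c hc using h1
  refine ⟨c, fun u => ?_⟩
  conv_lhs => rw [← e.sum_repr u]
  simp only [Fin.sum_univ_three, AddChar.map_add_eq_mul, hc]

/-- The zero of the cubic in terms of additive characters. -/
theorem exists_char_zero (hfr : finrank k K = 3) [FiniteDimensional k K] (φ : K →ₗ[k] K) (N : K → k)
    (hN : ∀ t, algebraMap k K (N t) = t * φ t * φ (φ t)) (hN0 : ∀ t, t ≠ 0 → N t ≠ 0)
    (ν₁ ν₄ : AddChar k ℂ) (ν₂ ν₃ : AddChar K ℂ) (hν : ν₄ ≠ 1) :
    ∃ t : K, ∀ a : k, ν₁ a * ν₂ (-(a • t)) * ν₃ (-(a • (t * φ t))) * ν₄ (-(a * N t)) = 1 := by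
  classical
  set ψ := ν₄ with hψ
  let e : Basis (Fin 3) k K := Module.finBasisOfFinrankEq k K hfr
  obtain ⟨l, hl⟩ := exists_mulShift ψ hν ν₁
  obtain ⟨c₂, hc₂⟩ := exists_coords ψ hν e ν₂
  obtain ⟨c₃, hc₃⟩ := exists_coords ψ hν e ν₃
  obtain ⟨π, hπ⟩ : ∃ π : K →ₗ[k] k, ∀ x : k, π (algebraMap k K x) = x := by
    have hinj : LinearMap.ker (Algebra.linearMap k K) = ⊥ :=
      LinearMap.ker_eq_bot.mpr (algebraMap k K).injective
    obtain ⟨g, hg⟩ := LinearMap.exists_leftInverse_of_injective _ hinj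
    exact ⟨g, fun x => by simpa using LinearMap.congr_fun hg x⟩
  set A : Fin 3 → k := fun i => - c₂ i with hA
  set B : Fin 3 → Fin 3 → k := fun i j => - ∑ m, c₃ m * e.repr (e i * φ (e j)) m with hB
  set C' : Fin 3 → Fin 3 → Fin 3 → k := fun i j m => - π (e i * φ (e j) * φ (φ (e m))) with hC
  let vec : (Fin 3 → k) → K := fun t => ∑ i, t i • e i
  have hrepr : ∀ t : Fin 3 → k, ∀ i, e.repr (vec t) i = t i := by
    intro t i
    simp only [vec, map_sum, map_smul]
    simp [Finsupp.single_apply]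
  have hexp3 : ∀ t : Fin 3 → k, vec t * φ (vec t) * φ (φ (vec t)) =
      ∑ i, ∑ j, ∑ m, (t i * t j * t m) • (e i * φ (e j) * φ (φ (e m))) := by
    intro t
    simp only [vec, Fin.sum_univ_three, map_add, map_smul]
    simp only [Algebra.smul_def, map_mul]
    ring
  have hexp2 : ∀ t : Fin 3 → k, vec t * φ (vec t) = ∑ i, ∑ j, (t i * t j) • (e i * φ (e j)) := by
    intro t
    simp only [vec, Fin.sum_univ_three, map_add, map_smul]
    simp only [Algebra.smul_def, map_mul]
    ring
  have hnorm : ∀ t : Fin 3 → k, N (vec t) = ∑ i, ∑ j, ∑ m, (π (e i * φ (e j) * φ (φ (e m)))) * t i * t j * t m := by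
    intro t
    have h1 : N (vec t) = π (algebraMap k K (N (vec t))) := (hπ _).symm
    rw [h1, hN, hexp3]
    simp only [map_sum, map_smul, smul_eq_mul]
    refine Finset.sum_congr rfl fun i _ => Finset.sum_congr rfl fun j _ => Finset.sum_congr rfl fun m _ => ?_
    ring
  have hC0 : ∀ t : Fin 3 → k, t ≠ 0 → ∑ i, ∑ j, ∑ m, C' i j m * t i * t j * t m ≠ 0 := by
    intro t ht h0
    have hv : vec t ≠ 0 := by
      intro h
      apply ht
      funext i
      have := hrepr t i
      rw [h] at this
      simpa using this.symm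
    apply hN0 _ hv
    rw [hnorm]
    have : ∑ i, ∑ j, ∑ m, C' i j m * t i * t j * t m = - ∑ i, ∑ j, ∑ m, (π (e i * φ (e j) * φ (φ (e m)))) * t i * t j * t m := by
      simp only [hC, Fin.sum_univ_three]
      ring
    rw [this] at h0
    exact neg_eq_zero.mp h0
  obtain ⟨tc, htc⟩ := exists_zero_cubic l A B C' hC0
  refine ⟨vec tc, fun a => ?_⟩
  set t := vec tc with ht
  have e2 : ν₂ (-(a • t)) = ψ (∑ i, c₂ i * (- (a * tc i))) := by
    rw [hc₂]
    congr 1
    refine Finset.sum_congr rfl fun i _ => ?_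
    rw [map_neg, map_smul]
    simp [ht, hrepr]
  have e3 : ν₃ (-(a • (t * φ t))) = ψ (∑ m, c₃ m * (- (a * ∑ i, ∑ j, tc i * tc j * e.repr (e i * φ (e j)) m))) := by
    rw [hc₃]
    congr 1
    refine Finset.sum_congr rfl fun m _ => ?_
    rw [map_neg, map_smul, ht, hexp2]
    simp only [map_sum, map_smul, Finsupp.coe_neg, Pi.neg_apply, Finsupp.coe_smul, Pi.smul_apply, smul_eq_mul,
      Finsupp.coe_finsetSum, Finset.sum_apply]
  have e1 : ν₁ a = ψ (l * a) := hl a
  rw [e1, e2, e3, ← AddChar.map_add_eq_mul, ← AddChar.map_add_eq_mul, ← AddChar.map_add_eq_mul]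
  have hz : l * a + ∑ i, c₂ i * (- (a * tc i)) + ∑ m, c₃ m * (- (a * ∑ i, ∑ j, tc i * tc j * e.repr (e i * φ (e j)) m)) +
      (-(a * N t)) = a * (l + ∑ i, A i * tc i + ∑ i, ∑ j, B i j * tc i * tc j +
      ∑ i, ∑ j, ∑ m, C' i j m * tc i * tc j * tc m) := by
    rw [ht, hnorm]
    simp only [hA, hB, hC, Fin.sum_univ_three]
    ring
  rw [hz, htc, mul_zero, AddChar.map_zero_eq_one]

end Char

end Cfsg.Agent.Lib.MinD4.CW
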