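import Cfsg.Agent.Lib.MinD4.Weight
import Cfsg.Agent.Lib.MinD4.CW

/-!
The abstract form of the degree bound for ³D₄: the parabolic with extraspecial radical `q^{1+8}`.
-/

set_option autoImplicit false
set_option linter.unusedSectionVars false
set_option linter.unusedVariables false

namespace Cfsg.Agent.Lib.MinD4.Abs

open Module Cfsg.Agent.Lib.MinD4.Weight
open scoped _root_.Classical

variable {G : Type*} [Group G] {k K : Type*} [Field k] [Field K] [Fintype k] [Fintype K] [Algebra k K]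

/-- The relations in `G` among the root elements used in the bound. -/
structure Rel (φ : K → K) (N : K → k) (T : K → K → k)
    (z r b : k → G) (y w X : K → G) (h₁ h₂ : kˣ → G) (nα nβ : G) (εα εz εβ : kˣ) : Prop where
  z_add : ∀ s s', z (s + s') = z s * z s'
  r_add : ∀ s s', r (s + s') = r s * r s'
  b_add : ∀ s s', b (s + s') = b s * b s'
  y_add : ∀ s s', y (s + s') = y s * y s'
  w_add : ∀ s s', w (s + s') = w s * w s'
  z_b : ∀ s a, z s * b a = b a * z s
  z_y : ∀ s u, z s * y u = y u * z s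
  z_w : ∀ s v, z s * w v = w v * z s
  z_r : ∀ s d, z s * r d = r d * z s
  z_X : ∀ s t, z s * X t = X t * z s
  b_y : ∀ a u, b a * y u = y u * b a
  b_w : ∀ a v, b a * w v = w v * b a
  y_r : ∀ u d, y u * r d = r d * y u
  w_r : ∀ v d, w v * r d = r d * w v
  b_r : ∀ a d, b a * r d * (b a)⁻¹ = r d * z (a * d)
  y_w : ∀ u v, y u * w v * (y u)⁻¹ = w v * z (T u v)
  h1_b : ∀ (c : kˣ) a, h₁ c * b a * (h₁ c)⁻¹ = b ((c : k) * a)
  h1_y : ∀ (c : kˣ) u, h₁ c * y u * (h₁ c)⁻¹ = y ((c : k) • u)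
  h1_w : ∀ (c : kˣ) v, h₁ c * w v * (h₁ c)⁻¹ = w ((c : k) • v)
  h1_r : ∀ (c : kˣ) d, h₁ c * r d * (h₁ c)⁻¹ = r ((c : k) * d)
  h1_z : ∀ (c : kˣ) s, h₁ c * z s * (h₁ c)⁻¹ = z ((c : k) ^ 2 * s)
  h2_z : ∀ (c : kˣ) s, h₂ c * z s * (h₂ c)⁻¹ = z ((c : k) * s)
  h2_r : ∀ (c : kˣ) d, h₂ c * r d * (h₂ c)⁻¹ = r ((c : k)⁻¹ * d)
  h2_w : ∀ (c : kˣ) v, h₂ c * w v = w v * h₂ c
  X_b : ∀ t a, ∃ e, X t * b a * (X t)⁻¹ = b a * y (-(a • t)) * w (-(a • (t * φ t))) * r (-(a * N t)) * z e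
  nα_b : ∀ a, nα * b a * nα⁻¹ = r ((εα : k) * a)
  nα_z : ∀ s, nα * z s * nα⁻¹ = z ((εz : k) * s)
  nβ_r : ∀ d, nβ * r d * nβ⁻¹ = z ((εβ : k) * d)

variable {φ : K → K} {N : K → k} {T : K → K → k}
  {z r b : k → G} {y w X : K → G} {h₁ h₂ : kˣ → G} {nα nβ : G} {εα εz εβ : kˣ}

namespace Rel

variable (R : Rel φ N T z r b y w X h₁ h₂ nα nβ εα εz εβ)

include R

lemma z_zero : z 0 = 1 := by
  have := R.z_add 0 0
  rw [add_zero] at this
  exact left_eq_mul.mp this

lemma r_zero : r 0 = 1 := by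
  have := R.r_add 0 0
  rw [add_zero] at this
  exact left_eq_mul.mp this

lemma b_zero : b 0 = 1 := by
  have := R.b_add 0 0
  rw [add_zero] at this
  exact left_eq_mul.mp this

lemma y_zero : y 0 = 1 := by
  have := R.y_add 0 0
  rw [add_zero] at this
  exact left_eq_mul.mp this

lemma w_zero : w 0 = 1 := by
  have := R.w_add 0 0
  rw [add_zero] at this
  exact left_eq_mul.mp this

lemma b_neg (a : k) : (b a)⁻¹ = b (-a) := by
  apply inv_eq_of_mul_eq_one_right
  rw [← R.b_add, add_neg_cancel, R.b_zero]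

lemma y_neg (a : K) : (y a)⁻¹ = y (-a) := by
  apply inv_eq_of_mul_eq_one_right
  rw [← R.y_add, add_neg_cancel, R.y_zero]

/-- Moving `r` past `b`. -/
lemma r_mul_b (d a : k) : r d * b a = b a * (r d * z (-(a * d))) := by
  have h := R.b_r (-a) d
  rw [← R.b_neg, inv_inv] at h
  have e : -(a * d) = -a * d := by ring
  rw [e, ← h]
  group

/-- Moving `w` past `y`. -/
lemma w_mul_y (v u : K) : w v * y u = y u * (w v * z (T (-u) v)) := by
  have h := R.y_w (-u) v
  rw [← R.y_neg, inv_inv] at h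
  rw [← h]
  group

lemma r_mul_h2 (c : kˣ) (d : k) : r d * h₂ c = h₂ c * r ((c : k) * d) := by
  have h := R.h2_r c ((c : k) * d)
  rw [← mul_assoc, inv_mul_cancel₀ c.ne_zero, one_mul] at h
  rw [← h]
  group

lemma z_mul_h2 (c : kˣ) (s : k) : z s * h₂ c = h₂ c * z ((c : k)⁻¹ * s) := by
  have h := R.h2_z c ((c : k)⁻¹ * s)
  rw [← mul_assoc, mul_inv_cancel₀ c.ne_zero, one_mul] at h
  rw [← h]
  group

/-- Conjugation by `h₂ c * b a * y u` on the abelian group. -/
lemma E_move (c : kˣ) (a : k) (u : K) (d : k) (v : K) (s : k) :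
    (r d * w v * z s) * (h₂ c * b a * y u) =
      (h₂ c * b a * y u) * (r ((c : k) * d) * w v * z ((c : k)⁻¹ * s + -(a * ((c : k) * d)) + T (-u) v)) := by
  have e1 : z ((c : k)⁻¹ * s + -(a * ((c : k) * d)) + T (-u) v) =
      z ((c : k)⁻¹ * s) * z (-(a * ((c : k) * d))) * z (T (-u) v) := by
    rw [R.z_add, R.z_add]
  rw [e1]
  calc (r d * w v * z s) * (h₂ c * b a * y u)
      = r d * w v * (z s * h₂ c) * b a * y u := by group
    _ = r d * (w v * h₂ c) * z ((c : k)⁻¹ * s) * b a * y u := by rw [R.z_mul_h2]; group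
    _ = (r d * h₂ c) * w v * z ((c : k)⁻¹ * s) * b a * y u := by rw [← R.h2_w]; group
    _ = h₂ c * (r ((c : k) * d) * w v * (z ((c : k)⁻¹ * s) * b a)) * y u := by rw [R.r_mul_h2]; group
    _ = h₂ c * (r ((c : k) * d) * (w v * b a) * z ((c : k)⁻¹ * s)) * y u := by rw [R.z_b]; group
    _ = h₂ c * ((r ((c : k) * d) * b a) * w v * z ((c : k)⁻¹ * s)) * y u := by rw [← R.b_w]; group
    _ = h₂ c * b a * (r ((c : k) * d) * z (-(a * ((c : k) * d))) * w v * z ((c : k)⁻¹ * s)) * y u := by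
        rw [R.r_mul_b]; group
    _ = h₂ c * b a * r ((c : k) * d) * w v * (z (-(a * ((c : k) * d))) * z ((c : k)⁻¹ * s)) * y u := by
        rw [mul_assoc (r _) (z _) (w v), R.z_w]; group
    _ = h₂ c * b a * r ((c : k) * d) * w v * (z ((c : k)⁻¹ * s) * z (-(a * ((c : k) * d)))) * y u := by
        rw [← R.z_add, ← R.z_add, add_comm]
    _ = h₂ c * b a * r ((c : k) * d) * (w v * y u) * (z ((c : k)⁻¹ * s) * z (-(a * ((c : k) * d)))) := by
        have hz : (z ((c : k)⁻¹ * s) * z (-(a * ((c : k) * d)))) * y u = y u * (z ((c : k)⁻¹ * s) * z (-(a * ((c : k) * d)))) := by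
          rw [mul_assoc, R.z_y, ← mul_assoc, R.z_y, mul_assoc]
        simp only [mul_assoc] at hz ⊢
        rw [hz]
    _ = h₂ c * b a * (r ((c : k) * d) * y u) * w v * z (T (-u) v) * (z ((c : k)⁻¹ * s) * z (-(a * ((c : k) * d)))) := by
        rw [R.w_mul_y]; group
    _ = h₂ c * b a * y u * r ((c : k) * d) * w v * z (T (-u) v) * (z ((c : k)⁻¹ * s) * z (-(a * ((c : k) * d)))) := by
        rw [← R.y_r]; group
    _ = _ := by
        have hc : z (T (-u) v) * (z ((c : k)⁻¹ * s) * z (-(a * ((c : k) * d)))) =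
            z ((c : k)⁻¹ * s) * z (-(a * ((c : k) * d))) * z (T (-u) v) := by
          simp only [← R.z_add]
          rw [add_comm]
        calc h₂ c * b a * y u * r ((c : k) * d) * w v * z (T (-u) v) * (z ((c : k)⁻¹ * s) * z (-(a * ((c : k) * d))))
            = h₂ c * b a * y u * r ((c : k) * d) * w v * (z (T (-u) v) * (z ((c : k)⁻¹ * s) * z (-(a * ((c : k) * d))))) := by
              group
          _ = _ := by rw [hc]; group

end Rel

section Main

variable {V : Type*} [AddCommGroup V] [Module ℂ V] [FiniteDimensional ℂ V] (ρ : Representation ℂ G V)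
variable (R : Rel φ N T z r b y w X h₁ h₂ nα nβ εα εz εβ)

lemma trace_conj (g x : G) : LinearMap.trace ℂ V (ρ (g * x * g⁻¹)) = LinearMap.trace ℂ V (ρ x) := by
  rw [map_mul, LinearMap.trace_mul_comm, ← map_mul]
  simp

/-- The fixed space of the centre of the radical. -/
def Cz (ρ : Representation ℂ G V) (z : k → G) : Submodule ℂ V := fixS (fun s : k => ρ (z s))

/-- The fixed space of the group `E₂`. -/
def Cz2 (ρ : Representation ℂ G V) (r z : k → G) : Submodule ℂ V := fixS (fun p : k × k => ρ (r p.1 * z p.2))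

include R

lemma tr_z {s : k} (hs : s ≠ 0) : LinearMap.trace ℂ V (ρ (z s)) = LinearMap.trace ℂ V (ρ (z 1)) := by
  have h := R.h2_z (Units.mk0 s hs)⁻¹ s
  have e : (((Units.mk0 s hs)⁻¹ : kˣ) : k) * s = 1 := by
    simp [hs]
  rw [e] at h
  rw [← h, trace_conj]

lemma tr_rz {d : k} (hd : d ≠ 0) (s : k) :
    LinearMap.trace ℂ V (ρ (r d * z s)) = LinearMap.trace ℂ V (ρ (z 1)) := by
  have h1 : b (-s / d) * (r d * z s) * (b (-s / d))⁻¹ = r d := by
    have e : b (-s / d) * (r d * z s) * (b (-s / d))⁻¹ =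
        (b (-s / d) * r d * (b (-s / d))⁻¹) * (b (-s / d) * z s * (b (-s / d))⁻¹) := by group
    rw [e, R.b_r, ← R.z_b]
    simp only [mul_inv_cancel_right]
    rw [mul_assoc, ← R.z_add]
    have e2 : -s / d * d + s = 0 := by field_simp; ring
    rw [e2, R.z_zero, mul_one]
  rw [← trace_conj ρ (b (-s / d)), h1]
  rw [← trace_conj ρ nβ, R.nβ_r]
  exact tr_z ρ R (mul_ne_zero εβ.ne_zero hd)

lemma tauz_add (s s' : k) : ρ (z (s + s')) = ρ (z s) * ρ (z s') := by
  rw [R.z_add, map_mul]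

lemma tauz_zero : ρ (z 0) = 1 := by
  rw [R.z_zero, map_one]

lemma taup_add (p p' : k × k) : ρ (r (p + p').1 * z (p + p').2) = ρ (r p.1 * z p.2) * ρ (r p'.1 * z p'.2) := by
  rw [← map_mul]
  congr 1
  simp only [Prod.fst_add, Prod.snd_add, R.r_add, R.z_add]
  calc r p.1 * r p'.1 * (z p.2 * z p'.2) = r p.1 * (r p'.1 * z p.2) * z p'.2 := by group
    _ = r p.1 * (z p.2 * r p'.1) * z p'.2 := by rw [R.z_r]
    _ = _ := by group

lemma taup_zero : ρ (r (0 : k × k).1 * z (0 : k × k).2) = 1 := by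
  simp [R.z_zero, R.r_zero]

/-- The identity between the dimensions of the fixed spaces. -/
theorem trace_identity :
    finrank ℂ V + Fintype.card k * finrank ℂ (Cz2 ρ r z) = (Fintype.card k + 1) * finrank ℂ (Cz ρ z) := by
  have h1 := card_mul_finrank_fix (τ := fun s : k => ρ (z s)) (tauz_add ρ R) (tauz_zero ρ R)
  have h2 := card_mul_finrank_fix (τ := fun p : k × k => ρ (r p.1 * z p.2)) (taup_add ρ R) (taup_zero ρ R)
  set wv := LinearMap.trace ℂ V (ρ (z 1)) with hwv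
  set q := Fintype.card k with hq
  have hq0 : 0 < q := Fintype.card_pos
  have hq1 : (q : ℂ) ≠ 0 := by exact_mod_cast hq0.ne'
  rw [← Finset.add_sum_erase Finset.univ _ (Finset.mem_univ (0 : k))] at h1
  rw [← Finset.add_sum_erase Finset.univ _ (Finset.mem_univ (0 : k × k))] at h2
  have e1 : ∑ s ∈ Finset.univ.erase (0 : k), LinearMap.trace ℂ V (ρ (z s)) = ((q - 1 : ℕ) : ℂ) * wv := by
    rw [Finset.sum_congr rfl (g := fun _ => wv) (fun s hs => tr_z ρ R (Finset.ne_of_mem_erase hs))]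
    simp [Finset.card_erase_of_mem, hq]
  have e2 : ∑ p ∈ Finset.univ.erase (0 : k × k), LinearMap.trace ℂ V (ρ (r p.1 * z p.2)) = ((q * q - 1 : ℕ) : ℂ) * wv := by
    rw [Finset.sum_congr rfl (g := fun _ => wv) (fun p hp => ?_)]
    · simp [Finset.card_erase_of_mem, hq]
    · have hp0 : p ≠ 0 := Finset.ne_of_mem_erase hp
      by_cases hd : p.1 = 0
      · have hs : p.2 ≠ 0 := fun h => hp0 (Prod.ext hd h)
        rw [hd, R.r_zero, one_mul]
        exact tr_z ρ R hs
      · exact tr_rz ρ R hd _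
  rw [e1] at h1
  rw [e2] at h2
  simp only [Prod.fst_zero, Prod.snd_zero, R.z_zero, R.r_zero, map_one, one_mul, LinearMap.trace_one] at h1 h2
  rw [Nat.cast_sub (by omega), Nat.cast_one] at h1
  have hqq : 1 ≤ q * q := Nat.mul_pos hq0 hq0
  rw [Nat.cast_sub hqq, Nat.cast_mul, Nat.cast_one] at h2
  have hcp : Fintype.card (k × k) = q * q := by rw [Fintype.card_prod]
  rw [hcp, Nat.cast_mul] at h2
  change (q : ℂ) * (finrank ℂ (Cz ρ z) : ℂ) = _ at h1
  change (q : ℂ) * q * (finrank ℂ (Cz2 ρ r z) : ℂ) = _ at h2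
  have h3 : (q : ℂ) * ((finrank ℂ V : ℂ) + q * finrank ℂ (Cz2 ρ r z)) =
      (q : ℂ) * (((q : ℂ) + 1) * finrank ℂ (Cz ρ z)) := by
    linear_combination ((q : ℂ) + 1) * (-h1) + h2
  have h4 := mul_left_cancel₀ hq1 h3
  exact_mod_cast h4

end Main

end Cfsg.Agent.Lib.MinD4.Abs
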