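import Cfsg.Agent.Lib.MinD4.Abs

/-!
The bound from the weights of the abelian subgroup `E` of the radical.
-/

set_option autoImplicit false
set_option linter.unusedSectionVars false
set_option linter.unusedVariables false

namespace Cfsg.Agent.Lib.MinD4.Abs

open Module Cfsg.Agent.Lib.MinD4.Weight
open scoped _root_.Classical

variable {G : Type*} [Group G] {k K : Type*} [Field k] [Field K] [Fintype k] [Fintype K] [Algebra k K]
variable {φ : K → K} {N : K → k} {T : K → K → k}
  {z r b : k → G} {y w X : K → G} {h₁ h₂ : kˣ → G} {nα nβ : G} {εα εz εβ : kˣ}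
variable {V : Type*} [AddCommGroup V] [Module ℂ V] [FiniteDimensional ℂ V] (ρ : Representation ℂ G V)
variable (R : Rel φ N T z r b y w X h₁ h₂ nα nβ εα εz εβ)

/-- The operators of the abelian group. -/
def tauE (ρ : Representation ℂ G V) (r z : k → G) (w : K → G) : k × K × k → Module.End ℂ V :=
  fun e => ρ (r e.1 * w e.2.1 * z e.2.2)

include R

lemma tauE_add (e e' : k × K × k) : tauE ρ r z w (e + e') = tauE ρ r z w e * tauE ρ r z w e' := by
  simp only [tauE, ← map_mul]
  congr 1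
  simp only [Prod.fst_add, Prod.snd_add, R.r_add, R.z_add, R.w_add]
  calc r e.1 * r e'.1 * (w e.2.1 * w e'.2.1) * (z e.2.2 * z e'.2.2)
      = r e.1 * (r e'.1 * w e.2.1) * w e'.2.1 * (z e.2.2 * z e'.2.2) := by group
    _ = r e.1 * (w e.2.1 * r e'.1) * w e'.2.1 * (z e.2.2 * z e'.2.2) := by rw [R.w_r]
    _ = r e.1 * w e.2.1 * r e'.1 * w e'.2.1 * z e.2.2 * z e'.2.2 := by group
    _ = r e.1 * w e.2.1 * r e'.1 * (w e'.2.1 * z e.2.2) * z e'.2.2 := by group
    _ = r e.1 * w e.2.1 * r e'.1 * (z e.2.2 * w e'.2.1) * z e'.2.2 := by rw [R.z_w]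
    _ = r e.1 * w e.2.1 * (r e'.1 * z e.2.2) * w e'.2.1 * z e'.2.2 := by group
    _ = r e.1 * w e.2.1 * (z e.2.2 * r e'.1) * w e'.2.1 * z e'.2.2 := by rw [R.z_r]
    _ = _ := by group

lemma tauE_zero : tauE ρ r z w 0 = 1 := by
  simp [tauE, R.z_zero, R.r_zero, R.w_zero]

/-- The bound from the abelian group. -/
theorem D_add_le (hz : ρ (z 1) ≠ 1) (hT_add : ∀ u u' v, T (u + u') v = T u v + T u' v) (hT0 : ∀ u, T u 0 = 0)
    (hT_surj : ∀ u, u ≠ 0 → ∀ s, ∃ v, T u v = s) :
    finrank ℂ (Cz ρ z) + Fintype.card (kˣ × k × K) ≤ finrank ℂ V := by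
  have hadd := tauE_add ρ R
  have hzero := tauE_zero ρ R
  obtain ⟨v₀, μ, hv0, hμ, hμ1⟩ := exists_weight hadd hzero ((0, 0, 1) : k × K × k) (by
    intro h
    apply hz
    have : tauE ρ r z w ((0, 0, 1) : k × K × k) = ρ (z 1) := by
      simp [tauE, R.r_zero, R.w_zero]
    rw [← this, h])
  -- the character on the centre
  have hne0 : ∀ e, μ e ≠ 0 := fun e => (AddChar.val_isUnit μ e).ne_zero
  set l : k → ℂ := fun s => μ ((0, 0, s) : k × K × k) with hl
  have hshift : ∀ (x : k) (v : K) (s s₀ : k), μ ((x, v, s + s₀) : k × K × k) = μ ((x, v, s) : k × K × k) * l s₀ := by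
    intro x v s s₀
    rw [hl]
    simp only
    rw [← AddChar.map_add_eq_mul]
    simp
  obtain ⟨s₀, hs₀⟩ : ∃ s₀ : k, l s₀ ≠ 1 := ⟨1, hμ1⟩
  have hdiff : ∀ (x : k) (v : K) (s s' : k), s = s' + s₀ → μ ((x, v, s) : k × K × k) ≠ μ ((x, v, s') : k × K × k) := by
    intro x v s s' hs e
    rw [hs, hshift] at e
    have h0 := hne0 ((x, v, s') : k × K × k)
    exact hs₀ (mul_left_cancel₀ h0 (by rw [e, mul_one]))
  -- the family
  let g : kˣ × k × K → G := fun i => h₂ i.1 * b i.2.1 * y i.2.2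
  let vv : kˣ × k × K → V := fun i => ρ (g i) v₀
  let f : kˣ × k × K → k × K × k → ℂ := fun i e =>
    μ (((i.1 : k) * e.1, e.2.1, (i.1 : k)⁻¹ * e.2.2 + -(i.2.1 * ((i.1 : k) * e.1)) + T (-i.2.2) e.2.1) : k × K × k)
  have hv : ∀ i e, tauE ρ r z w e (vv i) = f i e • vv i := by
    rintro ⟨c, a, u⟩ ⟨d, v, s⟩
    show ρ (r d * w v * z s) (ρ (h₂ c * b a * y u) v₀) = _ • ρ (h₂ c * b a * y u) v₀
    rw [← Module.End.mul_apply, ← map_mul, R.E_move, map_mul, Module.End.mul_apply]
    have := hμ (((c : k) * d, v, (c : k)⁻¹ * s + -(a * ((c : k) * d)) + T (-u) v) : k × K × k)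
    simp only [tauE] at this
    rw [this, map_smul]
  have hne : ∀ i : kˣ × k × K, vv i ≠ 0 := by
    intro i h
    apply hv0
    have h1 : ρ (g i)⁻¹ (ρ (g i) v₀) = v₀ := by
      rw [← Module.End.mul_apply, ← map_mul]
      simp
    rw [← h1]
    show ρ (g i)⁻¹ (vv i) = 0
    rw [h, map_zero]
  have hneg : ∀ u : K, T (-u) 0 = 0 := fun u => hT0 _
  have hdist : ∀ i j, i ≠ j → ∃ e, f i e ≠ f j e := by
    rintro ⟨c, a, u⟩ ⟨c', a', u'⟩ hij
    by_cases hc : c = c'
    · subst hc
      by_cases ha : a = a'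
      · subst ha
        have hu : u' - u ≠ 0 := by
          intro h
          apply hij
          have : u' = u := sub_eq_zero.mp h
          rw [this]
        obtain ⟨v, hvv⟩ := hT_surj _ hu s₀
        refine ⟨(0, v, 0), ?_⟩
        simp only [f, mul_zero, add_zero, neg_zero, zero_add]
        apply hdiff
        have e1 : -u = (u' - u) + -u' := by ring
        rw [e1, hT_add, hvv, add_comm]
      · have ha' : a' - a ≠ 0 := sub_ne_zero.mpr (Ne.symm ha)
        refine ⟨(((c : k))⁻¹ * (s₀ / (a' - a)), 0, 0), ?_⟩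
        simp only [f, mul_zero, neg_zero, zero_add, hneg, add_zero]
        rw [mul_inv_cancel_left₀ c.ne_zero]
        apply hdiff
        field_simp
        ring
    · have hinv : ((c : k))⁻¹ - ((c' : k))⁻¹ ≠ 0 := by
        intro h
        apply hc
        have h1 : ((c : k))⁻¹ = ((c' : k))⁻¹ := sub_eq_zero.mp h
        exact Units.ext (inv_injective h1)
      refine ⟨(0, 0, s₀ / (((c : k))⁻¹ - ((c' : k))⁻¹)), ?_⟩
      simp only [f, mul_zero, neg_zero, add_zero, hneg]
      apply hdiff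
      have h9 : (((c : k))⁻¹ - ((c' : k))⁻¹) * (s₀ / (((c : k))⁻¹ - ((c' : k))⁻¹)) = s₀ := mul_div_cancel₀ _ hinv
      linear_combination h9
  have hli : LinearIndependent ℂ vv := li_of_weights hadd hzero vv f hv hne hdist
  -- the family meets the fixed space trivially
  set Sg : Module.End ℂ V := ∑ s : k, ρ (z s) with hSg
  have hS0 : ∀ i, Sg (vv i) = 0 := by
    rintro ⟨c, a, u⟩
    have hs : ∀ s, ρ (z s) (vv (c, a, u)) = l ((c : k)⁻¹ * s) • vv (c, a, u) := by
      intro s
      show ρ (z s) (ρ (h₂ c * b a * y u) v₀) = _ • ρ (h₂ c * b a * y u) v₀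
      have e : z s * (h₂ c * b a * y u) = (h₂ c * b a * y u) * z ((c : k)⁻¹ * s) := by
        calc z s * (h₂ c * b a * y u) = (z s * h₂ c) * b a * y u := by group
          _ = h₂ c * (z ((c : k)⁻¹ * s) * b a) * y u := by rw [R.z_mul_h2]; group
          _ = h₂ c * b a * (z ((c : k)⁻¹ * s) * y u) := by rw [R.z_b]; group
          _ = _ := by rw [R.z_y]; group
      rw [← Module.End.mul_apply, ← map_mul, e, map_mul, Module.End.mul_apply]
      have := hμ ((0, 0, (c : k)⁻¹ * s) : k × K × k)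
      simp only [tauE, R.r_zero, R.w_zero, one_mul] at this
      rw [this, map_smul]
    have h1 : ρ (z ((c : k) * s₀)) (Sg (vv (c, a, u))) = Sg (vv (c, a, u)) := by
      rw [hSg]
      simp only [LinearMap.sum_apply, map_sum, ← Module.End.mul_apply, ← map_mul, ← R.z_add]
      exact Equiv.sum_comp (Equiv.addLeft ((c : k) * s₀)) (fun s => (ρ (z s)) (vv (c, a, u)))
    have h2 : ρ (z ((c : k) * s₀)) (Sg (vv (c, a, u))) = l s₀ • Sg (vv (c, a, u)) := by
      rw [hSg]
      simp only [LinearMap.sum_apply, map_sum, Finset.smul_sum]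
      refine Finset.sum_congr rfl fun s _ => ?_
      have e3 : (c : k)⁻¹ * ((c : k) * s₀) = s₀ := inv_mul_cancel_left₀ c.ne_zero s₀
      rw [hs s, map_smul, hs ((c : k) * s₀), e3, smul_smul, smul_smul, mul_comm]
    rw [h1] at h2
    have h3 : (l s₀ - 1) • Sg (vv (c, a, u)) = 0 := by
      rw [sub_smul, ← h2, one_smul, sub_self]
    exact (smul_eq_zero.mp h3).resolve_left (sub_ne_zero.mpr hs₀)
  have hdis : Disjoint (Submodule.span ℂ (Set.range vv)) (Cz ρ z) := by
    rw [Submodule.disjoint_def]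
    intro x hx hxC
    have h1 : Sg x = 0 := by
      have : Submodule.span ℂ (Set.range vv) ≤ LinearMap.ker Sg := by
        rw [Submodule.span_le]
        rintro _ ⟨i, rfl⟩
        exact hS0 i
      exact this hx
    have h2 : Sg x = (Fintype.card k : ℂ) • x := by
      rw [hSg]
      simp only [LinearMap.sum_apply]
      rw [Finset.sum_congr rfl (g := fun _ => x) (fun s _ => hxC s)]
      simp only [Finset.sum_const, Finset.card_univ]
      exact (Nat.cast_smul_eq_nsmul ℂ _ _).symm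
    rw [h2] at h1
    have hq : (Fintype.card k : ℂ) ≠ 0 := by exact_mod_cast Fintype.card_ne_zero
    exact (smul_eq_zero.mp h1).resolve_left hq
  have h5 := Submodule.finrank_add_finrank_le_of_disjoint hdis
  rw [finrank_span_eq_card hli] at h5
  omega

end Cfsg.Agent.Lib.MinD4.Abs
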