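import Cfsg.Agent.Lib.MinD4.Abs2

/-!
The bound `q - 1 ≤ n₀`: a weight of the radical on the fixed space of its centre vanishes
on a conjugate of a long root subgroup, by the cubic polynomial of the Levi factor.
-/

set_option autoImplicit false
set_option linter.unusedSectionVars false
set_option linter.unusedVariables false

namespace Cfsg.Agent.Lib.MinD4.Abs

open Module Cfsg.Agent.Lib.MinD4.Weight
open scoped _root_.Classical

variable {G : Type*} [Group G] {k K : Type*} [Field k] [Field K] [Fintype k] [Fintype K] [Algebra k K]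
variable {N : K → k} {T : K → K → k}
  {z r b : k → G} {y w X : K → G} {h₁ h₂ : kˣ → G} {nα nβ : G} {εα εz εβ : kˣ}
variable {V : Type*} [AddCommGroup V] [Module ℂ V] [FiniteDimensional ℂ V] (ρ : Representation ℂ G V)

/-- Restriction to the fixed space of the centre. -/
noncomputable def res (ρ : Representation ℂ G V) (z : k → G) (g : G) (hg : ∀ s, z s * g = g * z s) :
    Module.End ℂ (Cz ρ z) :=
  (ρ g).restrict (fun x hx s => by
    show ρ (z s) (ρ g x) = ρ g x
    rw [← Module.End.mul_apply, ← map_mul, hg, map_mul, Module.End.mul_apply]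
    exact congrArg _ (hx s))

lemma res_coe (g : G) (hg : ∀ s, z s * g = g * z s) (x : Cz ρ z) :
    ((res ρ z g hg x : Cz ρ z) : V) = ρ g x := rfl

lemma res_mul {g g' g'' : G} (hg : ∀ s, z s * g = g * z s) (hg' : ∀ s, z s * g' = g' * z s)
    (hg'' : ∀ s, z s * g'' = g'' * z s) (e : g'' = g * g') : res ρ z g'' hg'' = res ρ z g hg * res ρ z g' hg' := by
  ext x
  simp only [Module.End.mul_apply, res_coe, e, map_mul]

lemma res_comm {g g' : G} (hg : ∀ s, z s * g = g * z s) (hg' : ∀ s, z s * g' = g' * z s)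
    (e : ∃ s, g * g' = g' * g * z s) : Commute (res ρ z g hg) (res ρ z g' hg') := by
  obtain ⟨s, e⟩ := e
  ext x
  simp only [Module.End.mul_apply, res_coe]
  rw [← Module.End.mul_apply, ← map_mul, e, map_mul, Module.End.mul_apply, map_mul, Module.End.mul_apply]
  exact congrArg _ (congrArg _ (x.2 s))

lemma res_zero {g : G} (hg : ∀ s, z s * g = g * z s) (e : g = 1) : res ρ z g hg = 1 := by
  subst e
  ext x
  simp [res_coe]

lemma four_mul {M : Type*} [Monoid M] {a a' b' c' d' b c d : M} (h1 : Commute a' b) (h2 : Commute a' c) (h3 : Commute a' d)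
    (h4 : Commute b' c) (h5 : Commute b' d) (h6 : Commute c' d) :
    (a * b * c * d) * (a' * b' * c' * d') = (a * a') * (b * b') * (c * c') * (d * d') := by
  have e1 : d * a' = a' * d := h3.symm.eq
  have e2 : c * a' = a' * c := h2.symm.eq
  have e3 : b * a' = a' * b := h1.symm.eq
  have e4 : d * b' = b' * d := h5.symm.eq
  have e5 : c * b' = b' * c := h4.symm.eq
  have e6 : d * c' = c' * d := h6.symm.eq
  calc (a * b * c * d) * (a' * b' * c' * d') = a * b * c * (d * a') * b' * c' * d' := by simp only [mul_assoc]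
    _ = a * b * (c * a') * d * b' * c' * d' := by rw [e1]; simp only [mul_assoc]
    _ = a * (b * a') * c * d * b' * c' * d' := by rw [e2]; simp only [mul_assoc]
    _ = a * a' * b * c * (d * b') * c' * d' := by rw [e3]; simp only [mul_assoc]
    _ = a * a' * b * (c * b') * d * c' * d' := by rw [e4]; simp only [mul_assoc]
    _ = a * a' * (b * b') * c * (d * c') * d' := by rw [e5]; simp only [mul_assoc]
    _ = _ := by rw [e6]; simp only [mul_assoc]

variable {φ : K →ₗ[k] K} (R : Rel (⇑φ) N T z r b y w X h₁ h₂ nα nβ εα εz εβ)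

include R in
/-- Commutators of the radical are in the centre. -/
lemma b_r_comm (a d : k) : b a * r d = r d * b a * z (a * d) := by
  have h := R.b_r a d
  rw [mul_inv_eq_iff_eq_mul] at h
  rw [h, mul_assoc, mul_assoc, R.z_b]

include R in
lemma y_w_comm (u : K) (v : K) : y u * w v = w v * y u * z (T u v) := by
  have h := R.y_w u v
  rw [mul_inv_eq_iff_eq_mul] at h
  rw [h, mul_assoc, mul_assoc, R.z_y]

/-- The action of the radical on the fixed space of the centre. -/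
noncomputable def tauC (R : Rel (⇑φ) N T z r b y w X h₁ h₂ nα nβ εα εz εβ) : k × K × K × k → Module.End ℂ (Cz ρ z) :=
  fun e => res ρ z (b e.1) (fun s => R.z_b s e.1) * res ρ z (y e.2.1) (fun s => R.z_y s e.2.1) *
    res ρ z (w e.2.2.1) (fun s => R.z_w s e.2.2.1) * res ρ z (r e.2.2.2) (fun s => R.z_r s e.2.2.2)

lemma tauC_add (e e' : k × K × K × k) : tauC ρ R (e + e') = tauC ρ R e * tauC ρ R e' := by
  simp only [tauC]
  rw [four_mul]
  · simp only [Prod.fst_add, Prod.snd_add]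
    rw [res_mul ρ (fun s => R.z_b s e.1) (fun s => R.z_b s e'.1) _ (R.b_add _ _),
      res_mul ρ (fun s => R.z_y s e.2.1) (fun s => R.z_y s e'.2.1) _ (R.y_add _ _),
      res_mul ρ (fun s => R.z_w s e.2.2.1) (fun s => R.z_w s e'.2.2.1) _ (R.w_add _ _),
      res_mul ρ (fun s => R.z_r s e.2.2.2) (fun s => R.z_r s e'.2.2.2) _ (R.r_add _ _)]
  · exact res_comm ρ _ _ ⟨0, by rw [R.z_zero, mul_one, R.b_y]⟩
  · exact res_comm ρ _ _ ⟨0, by rw [R.z_zero, mul_one, R.b_w]⟩
  · exact res_comm ρ _ _ ⟨_, b_r_comm R _ _⟩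
  · exact res_comm ρ _ _ ⟨_, y_w_comm R _ _⟩
  · exact res_comm ρ _ _ ⟨0, by rw [R.z_zero, mul_one, R.y_r]⟩
  · exact res_comm ρ _ _ ⟨0, by rw [R.z_zero, mul_one, R.w_r]⟩

lemma tauC_zero : tauC ρ R 0 = 1 := by
  simp only [tauC, Prod.fst_zero, Prod.snd_zero]
  rw [res_zero ρ _ R.b_zero, res_zero ρ _ R.y_zero, res_zero ρ _ R.w_zero, res_zero ρ _ R.r_zero]
  simp

lemma tauC_coe (e : k × K × K × k) (x : Cz ρ z) :
    ((tauC ρ R e x : Cz ρ z) : V) = ρ (b e.1 * y e.2.1 * w e.2.2.1 * r e.2.2.2) x := by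
  simp only [tauC, Module.End.mul_apply, res_coe, map_mul]

include R in
/-- A root element of the radical on a conjugate. -/
lemma b_mul_h1 (c : kˣ) (a : k) : b a * h₁ c = h₁ c * b ((c : k)⁻¹ * a) := by
  have h := R.h1_b c ((c : k)⁻¹ * a)
  rw [mul_inv_cancel_left₀ c.ne_zero, mul_inv_eq_iff_eq_mul] at h
  exact h.symm

include R in
lemma y_mul_h1 (c : kˣ) (u : K) : y u * h₁ c = h₁ c * y ((c : k)⁻¹ • u) := by
  have h := R.h1_y c ((c : k)⁻¹ • u)
  rw [smul_inv_smul₀ c.ne_zero, mul_inv_eq_iff_eq_mul] at h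
  exact h.symm

include R in
lemma w_mul_h1 (c : kˣ) (u : K) : w u * h₁ c = h₁ c * w ((c : k)⁻¹ • u) := by
  have h := R.h1_w c ((c : k)⁻¹ • u)
  rw [smul_inv_smul₀ c.ne_zero, mul_inv_eq_iff_eq_mul] at h
  exact h.symm

include R in
lemma r_mul_h1 (c : kˣ) (a : k) : r a * h₁ c = h₁ c * r ((c : k)⁻¹ * a) := by
  have h := R.h1_r c ((c : k)⁻¹ * a)
  rw [mul_inv_cancel_left₀ c.ne_zero, mul_inv_eq_iff_eq_mul] at h
  exact h.symm

include R in
lemma z_mul_h1 (c : kˣ) (a : k) : z a * h₁ c = h₁ c * z (((c : k) ^ 2)⁻¹ * a) := by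
  have h := R.h1_z c (((c : k) ^ 2)⁻¹ * a)
  rw [mul_inv_cancel_left₀ (pow_ne_zero 2 c.ne_zero), mul_inv_eq_iff_eq_mul] at h
  exact h.symm

include R in
/-- The lower bound for the fixed space of the group `E₂`. -/
theorem card_units_le (hfr : finrank k K = 3) [FiniteDimensional k K]
    (hN : ∀ t, algebraMap k K (N t) = t * φ t * φ (φ t)) (hN0 : ∀ t, t ≠ 0 → N t ≠ 0)
    (hd : ∃ (d : k) (x : V), x ∈ Cz ρ z ∧ ρ (r d) x ≠ x) :
    Fintype.card kˣ ≤ finrank ℂ (Cz2 ρ r z) := by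
  obtain ⟨d₀, x₁, hx₁, hx₁d⟩ := hd
  have hadd := tauC_add ρ R
  have hzero := tauC_zero ρ R
  obtain ⟨x₀, ν, hx0, hν, hν1⟩ := exists_weight hadd hzero ((0, 0, 0, d₀) : k × K × K × k) (by
    intro h
    apply hx₁d
    have h1 := congrArg (fun Y => ((Y ⟨x₁, hx₁⟩ : Cz ρ z) : V)) h
    simp only [tauC_coe, Module.End.one_apply, R.b_zero, R.y_zero, R.w_zero, one_mul] at h1
    exact h1)
  have hwt : ∀ a u v d, ρ (b a * y u * w v * r d) (x₀ : V) = ν ((a, u, v, d) : k × K × K × k) • (x₀ : V) := by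
    intro a u v d
    have h1 := congrArg (fun t : Cz ρ z => (t : V)) (hν ((a, u, v, d) : k × K × K × k))
    simp only [tauC_coe, Submodule.coe_smul] at h1
    exact h1
  let ν₁ : AddChar k ℂ :=
    { toFun := fun a => ν ((a, 0, 0, 0) : k × K × K × k)
      map_zero_eq_one' := AddChar.map_zero_eq_one ν
      map_add_eq_mul' := fun a a' => by
        rw [← AddChar.map_add_eq_mul]
        simp }
  let ν₂ : AddChar K ℂ :=
    { toFun := fun a => ν ((0, a, 0, 0) : k × K × K × k)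
      map_zero_eq_one' := AddChar.map_zero_eq_one ν
      map_add_eq_mul' := fun a a' => by
        rw [← AddChar.map_add_eq_mul]
        simp }
  let ν₃ : AddChar K ℂ :=
    { toFun := fun a => ν ((0, 0, a, 0) : k × K × K × k)
      map_zero_eq_one' := AddChar.map_zero_eq_one ν
      map_add_eq_mul' := fun a a' => by
        rw [← AddChar.map_add_eq_mul]
        simp }
  let ν₄ : AddChar k ℂ :=
    { toFun := fun a => ν ((0, 0, 0, a) : k × K × K × k)
      map_zero_eq_one' := AddChar.map_zero_eq_one ν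
      map_add_eq_mul' := fun a a' => by
        rw [← AddChar.map_add_eq_mul]
        simp }
  have hsplit : ∀ a u v d, ν ((a, u, v, d) : k × K × K × k) = ν₁ a * ν₂ u * ν₃ v * ν₄ d := by
    intro a u v d
    show _ = ν _ * ν _ * ν _ * ν _
    rw [← AddChar.map_add_eq_mul, ← AddChar.map_add_eq_mul, ← AddChar.map_add_eq_mul]
    simp
  have hν₄ : ν₄ ≠ 1 := by
    intro h
    apply hν1
    have h1 : ν₄ d₀ = 1 := by rw [h]; simp
    exact h1
  obtain ⟨t, ht⟩ := Cfsg.Agent.Lib.MinD4.CW.exists_char_zero hfr φ N hN hN0 ν₁ ν₄ ν₂ ν₃ hν₄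
  -- the fixed vectors
  have hfix : ∀ (c : kˣ) (a : k), ρ (X t * b a * (X t)⁻¹) (ρ (h₁ c) (x₀ : V)) = ρ (h₁ c) (x₀ : V) := by
    intro c a
    obtain ⟨e, he⟩ := R.X_b t a
    rw [he, ← Module.End.mul_apply, ← map_mul]
    set a' := (c : k)⁻¹ * a with ha'
    have e1 : (b a * y (-(a • t)) * w (-(a • (t * φ t))) * r (-(a * N t)) * z e) * h₁ c =
        h₁ c * ((b a' * y (-(a' • t)) * w (-(a' • (t * φ t))) * r (-(a' * N t))) * z (((c : k) ^ 2)⁻¹ * e)) := by
      have s1 : (c : k)⁻¹ • (-(a • t)) = -(a' • t) := by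
        rw [ha', mul_smul, smul_neg]
      have s2 : (c : k)⁻¹ • (-(a • (t * φ t))) = -(a' • (t * φ t)) := by
        rw [ha', mul_smul, smul_neg]
      have s3 : (c : k)⁻¹ * (-(a * N t)) = -(a' * N t) := by
        rw [ha']; ring
      calc (b a * y (-(a • t)) * w (-(a • (t * φ t))) * r (-(a * N t)) * z e) * h₁ c
          = b a * y (-(a • t)) * w (-(a • (t * φ t))) * r (-(a * N t)) * (z e * h₁ c) := by group
        _ = b a * y (-(a • t)) * w (-(a • (t * φ t))) * (r (-(a * N t)) * h₁ c) * z (((c : k) ^ 2)⁻¹ * e) := by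
            rw [z_mul_h1 R]; group
        _ = b a * y (-(a • t)) * (w (-(a • (t * φ t))) * h₁ c) * r (-(a' * N t)) * z (((c : k) ^ 2)⁻¹ * e) := by
            rw [r_mul_h1 R, s3]; group
        _ = b a * (y (-(a • t)) * h₁ c) * w (-(a' • (t * φ t))) * r (-(a' * N t)) * z (((c : k) ^ 2)⁻¹ * e) := by
            rw [w_mul_h1 R, s2]; group
        _ = (b a * h₁ c) * y (-(a' • t)) * w (-(a' • (t * φ t))) * r (-(a' * N t)) * z (((c : k) ^ 2)⁻¹ * e) := by
            rw [y_mul_h1 R, s1]; group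
        _ = _ := by rw [b_mul_h1 R, ← ha']; simp only [mul_assoc]
    rw [e1, map_mul, Module.End.mul_apply, map_mul, Module.End.mul_apply]
    congr 1
    have h5 : ρ (z (((c : k) ^ 2)⁻¹ * e)) (x₀ : V) = x₀ := x₀.2 _
    rw [h5, hwt, hsplit, ht a', one_smul]
  -- moving the vectors to the fixed space of `E₂`
  let F : G := nα * (X t)⁻¹
  let vv : kˣ → V := fun c => ρ F (ρ (h₁ c) (x₀ : V))
  have hmem : ∀ c, vv c ∈ Cz2 ρ r z := by
    intro c
    have hz1 : ∀ s, ρ (z s) (vv c) = vv c := by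
      intro s
      show ρ (z s) (ρ (nα * (X t)⁻¹) (ρ (h₁ c) (x₀ : V))) = ρ (nα * (X t)⁻¹) (ρ (h₁ c) (x₀ : V))
      have hs : z s * nα = nα * z ((εz : k)⁻¹ * s) := by
        have h := R.nα_z ((εz : k)⁻¹ * s)
        rw [mul_inv_cancel_left₀ εz.ne_zero, mul_inv_eq_iff_eq_mul] at h
        exact h.symm
      have hX : ∀ s', z s' * (X t)⁻¹ = (X t)⁻¹ * z s' := by
        intro s'
        have := R.z_X s' t
        calc z s' * (X t)⁻¹ = (X t)⁻¹ * (X t * z s') * (X t)⁻¹ := by group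
          _ = (X t)⁻¹ * (z s' * X t) * (X t)⁻¹ := by rw [this]
          _ = _ := by group
      have e1 : z s * (nα * (X t)⁻¹ * h₁ c) = nα * (X t)⁻¹ * h₁ c * z (((c : k) ^ 2)⁻¹ * ((εz : k)⁻¹ * s)) := by
        calc z s * (nα * (X t)⁻¹ * h₁ c) = (z s * nα) * (X t)⁻¹ * h₁ c := by group
          _ = nα * (z ((εz : k)⁻¹ * s) * (X t)⁻¹) * h₁ c := by rw [hs]; group
          _ = nα * (X t)⁻¹ * (z ((εz : k)⁻¹ * s) * h₁ c) := by rw [hX]; group
          _ = _ := by rw [z_mul_h1 R]; group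
      have h5 : ρ (z (((c : k) ^ 2)⁻¹ * ((εz : k)⁻¹ * s))) (x₀ : V) = x₀ := x₀.2 _
      calc ρ (z s) (ρ (nα * (X t)⁻¹) (ρ (h₁ c) (x₀ : V))) = ρ (z s * (nα * (X t)⁻¹ * h₁ c)) (x₀ : V) := by
            simp only [map_mul, Module.End.mul_apply]
        _ = ρ (nα * (X t)⁻¹ * h₁ c) (ρ (z (((c : k) ^ 2)⁻¹ * ((εz : k)⁻¹ * s))) (x₀ : V)) := by
            rw [e1, map_mul, Module.End.mul_apply]
        _ = _ := by
            rw [h5]
            simp only [map_mul, Module.End.mul_apply]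
    have hr1 : ∀ d, ρ (r d) (vv c) = vv c := by
      intro d
      show ρ (r d) (ρ (nα * (X t)⁻¹) (ρ (h₁ c) (x₀ : V))) = ρ (nα * (X t)⁻¹) (ρ (h₁ c) (x₀ : V))
      set a := (εα : k)⁻¹ * d with ha
      have hd' : r d = nα * b a * nα⁻¹ := by
        rw [R.nα_b, ha, mul_inv_cancel_left₀ εα.ne_zero]
      have e1 : r d * (nα * (X t)⁻¹) = nα * (X t)⁻¹ * (X t * b a * (X t)⁻¹) := by
        rw [hd']; group
      rw [← Module.End.mul_apply, ← map_mul, e1, map_mul, Module.End.mul_apply, hfix]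
    intro p
    show ρ (r p.1 * z p.2) (vv c) = vv c
    rw [map_mul, Module.End.mul_apply, hz1, hr1]
  -- the independence
  have hwtr : ∀ (c : kˣ) (d : k), ρ (r d) (ρ (h₁ c) (x₀ : V)) = ν₄ ((c : k)⁻¹ * d) • ρ (h₁ c) (x₀ : V) := by
    intro c d
    rw [← Module.End.mul_apply, ← map_mul, r_mul_h1 R, map_mul, Module.End.mul_apply]
    have h1 := hwt 0 0 0 ((c : k)⁻¹ * d)
    rw [R.b_zero, R.y_zero, R.w_zero, one_mul, one_mul, one_mul] at h1
    rw [h1, map_smul]
    rfl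
  have hne : ∀ c, ρ (h₁ c) (x₀ : V) ≠ 0 := by
    intro c h
    apply hx0
    apply Subtype.ext
    have h1 : ρ (h₁ c)⁻¹ (ρ (h₁ c) (x₀ : V)) = x₀ := by
      rw [← Module.End.mul_apply, ← map_mul]
      simp
    rw [← h1, h, map_zero]
    rfl
  obtain ⟨s₀, hs₀⟩ : ∃ s₀, ν₄ s₀ ≠ 1 := by
    by_contra hc
    push Not at hc
    exact hν₄ (DFunLike.ext _ _ (fun s => by rw [hc s]; simp))
  have hli0 : LinearIndependent ℂ (fun c : kˣ => ρ (h₁ c) (x₀ : V)) := by
    refine li_of_weights (τ := fun d : k => ρ (r d)) (fun a a' => by rw [R.r_add, map_mul])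
      (by rw [R.r_zero, map_one]) _ (fun c d => ν₄ ((c : k)⁻¹ * d)) hwtr hne ?_
    intro c c' hcc
    have hinv : ((c : k))⁻¹ - ((c' : k))⁻¹ ≠ 0 := by
      intro h
      apply hcc
      have h1 : ((c : k))⁻¹ = ((c' : k))⁻¹ := sub_eq_zero.mp h
      exact Units.ext (inv_injective h1)
    refine ⟨s₀ / (((c : k))⁻¹ - ((c' : k))⁻¹), ?_⟩
    have h9 : (((c : k))⁻¹ - ((c' : k))⁻¹) * (s₀ / (((c : k))⁻¹ - ((c' : k))⁻¹)) = s₀ := mul_div_cancel₀ _ hinv
    have e : ((c : k))⁻¹ * (s₀ / (((c : k))⁻¹ - ((c' : k))⁻¹)) = ((c' : k))⁻¹ * (s₀ / (((c : k))⁻¹ - ((c' : k))⁻¹)) + s₀ := by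
      linear_combination h9
    show ν₄ _ ≠ ν₄ _
    rw [e, AddChar.map_add_eq_mul]
    intro h
    have h0 := (AddChar.val_isUnit ν₄ (((c' : k))⁻¹ * (s₀ / (((c : k))⁻¹ - ((c' : k))⁻¹)))).ne_zero
    exact hs₀ (mul_left_cancel₀ h0 (by rw [h, mul_one]))
  have hker : LinearMap.ker (ρ F) = ⊥ := by
    rw [LinearMap.ker_eq_bot']
    intro m hm
    have h1 : ρ F⁻¹ (ρ F m) = m := by
      rw [← Module.End.mul_apply, ← map_mul]
      simp
    rw [← h1, hm, map_zero]
  have hli : LinearIndependent ℂ vv := hli0.map' (ρ F) hker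
  have hspan : Submodule.span ℂ (Set.range vv) ≤ Cz2 ρ r z := by
    rw [Submodule.span_le]
    rintro _ ⟨c, rfl⟩
    exact hmem c
  have h6 := Submodule.finrank_mono hspan
  rwa [finrank_span_eq_card hli] at h6

end Cfsg.Agent.Lib.MinD4.Abs
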