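import Cfsg.Agent.Lib.Twisted.D4S
import Cfsg.Agent.Lib.Twisted.D4O
import Cfsg.Agent.Lib.Twisted.D4c

/-!
The root elements of ³D₄ in the general linear group: the relations of the parabolic with radical `q^{1+8}`.
-/

set_option autoImplicit false
set_option linter.unusedSectionVars false
set_option linter.unusedVariables false
set_option linter.ambiguousOpen false
set_option maxHeartbeats 1000000

namespace Cfsg.Agent.Lib.MinD4.GLRel

open scoped MatrixGroups Matrix
open Cfsg Lie ChevalleyDatum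
open Cfsg.Agent.Lib.Chev
open Tables Tables2 Tables3 Raise Basic AxBasic Torus Products Products2 Mono1 Mono2 Mono3 Bn ChevSimple
open Cfsg.Agent.Lib.Twisted.Fact Cfsg.Agent.Lib.Twisted.Bruhat Cfsg.Agent.Lib.Twisted.Tw
open Cfsg.Agent.Lib.Twisted.Struct Cfsg.Agent.Lib.Twisted.Check Cfsg.Agent.Lib.Twisted.Ortho
open Cfsg.Agent.Lib.GraphAut.Basic Cfsg.Agent.Lib.Twisted.Perf
open Cfsg.Agent.Lib.Twisted.D4

variable {K : Type*} [Field K] (ax : Ax chevD4 K) (φ : K ≃+* K)

local notation "x" => xG ax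

/-- The elements `x_{α+β}(u)`. -/
noncomputable def yG (u : K) : GL chevD4.Idx K := x 19 u * x 16 (-φ u) * x 15 (-φ (φ u))

/-- The elements `x_{2α+β}(v)`. -/
noncomputable def wG (v : K) : GL chevD4.Idx K := x 21 v * x 17 (-φ v) * x 20 (φ (φ v))

/-- The elements `x_α(t)`. -/
noncomputable def XG (t : K) : GL chevD4.Idx K := x 18 t * x 13 (φ t) * x 12 (φ (φ t))

/-- Commuting root elements. -/
lemma cm {r s : ℕ} (H : CommPair chevD4 r s) (t u : K) : Commute (x r t) (x s u) := (H.comm ax t u).symm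

/-- The conjugate of `x_s(u)` by `x_r(t)` when `r < s`, `r + s = k`, `[x_r, x_k] = 1`. -/
lemma conj_lt {r s m : ℕ} {c : ℤ} (hr : r < chevD4.nroots) (hs : s < chevD4.nroots) (h1 : s ≠ r) (h3 : s ≠ chevD4.neg r)
    (ht : chevD4.commTerms r s = [(m, c, 1, 1)]) (H : CommPair chevD4 r m) (t u : K) :
    x r t * x s u * (x r t)⁻¹ = x s u * x m ((c : K) * t * u) := by
  have h := xG_comm ax hr hs h1 h3 (-t) u
  simp only [commWord, ht, List.map_cons, List.map_nil, wordG_cons, wordG_nil, mul_one, pow_one, neg_neg] at h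
  rw [xG_inv]
  have h2 : x r t * x r (-t) = 1 := by rw [xG_add, add_neg_cancel, xG_zero]
  calc x r t * x s u * x r (-t) = x r t * (x s u * x r (-t)) := by group
    _ = x r t * (x r (-t) * x s u * x m ((c : K) * t * u)) := by rw [h]
    _ = (x r t * x r (-t)) * x s u * x m ((c : K) * t * u) := by group
    _ = _ := by rw [h2, one_mul]

/-- The conjugate of `x_s(u)` by `x_r(t)` when `s < r`, `r + s = k`, `[x_r, x_k] = 1`. -/
lemma conj_gt {r s m : ℕ} {c : ℤ} (hs : s < chevD4.nroots) (hr : r < chevD4.nroots) (h1 : r ≠ s) (h3 : r ≠ chevD4.neg s)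
    (ht : chevD4.commTerms s r = [(m, c, 1, 1)]) (H : CommPair chevD4 r m) (t u : K) :
    x r t * x s u * (x r t)⁻¹ = x s u * x m (-((c : K) * u * t)) := by
  have h := xG_comm ax hs hr h1 h3 u t
  simp only [commWord, ht, List.map_cons, List.map_nil, wordG_cons, wordG_nil, mul_one, pow_one] at h
  rw [h]
  have e : x m ((c : K) * -u * t) * (x r t)⁻¹ = (x r t)⁻¹ * x m ((c : K) * -u * t) := by
    have := (cm ax H t ((c : K) * -u * t)).inv_left.eq
    exact this.symm
  rw [mul_assoc, e]
  have e2 : (c : K) * -u * t = -((c : K) * u * t) := by ring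
  rw [e2]
  group

/-- Conjugation is multiplicative. -/
lemma conj_mul' {G : Type*} [Group G] (g a b : G) : g * (a * b) * g⁻¹ = (g * a * g⁻¹) * (g * b * g⁻¹) := by
  group

/-- Conjugation of a commuting root element. -/
lemma cj {r s : ℕ} (H : CommPair chevD4 r s) (t u : K) : x r t * x s u * (x r t)⁻¹ = x s u := by
  rw [(cm ax H t u).eq]
  group

section Add

include ax

lemma yG_add (u u' : K) : yG ax φ (u + u') = yG ax φ u * yG ax φ u' := by
  simp only [yG, map_add, neg_add]
  rw [three_mul (cm ax (by decide +kernel) _ _).eq (cm ax (by decide +kernel) _ _).eq (cm ax (by decide +kernel) _ _).eq,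
    xG_add, xG_add, xG_add]

lemma wG_add (u u' : K) : wG ax φ (u + u') = wG ax φ u * wG ax φ u' := by
  simp only [wG, map_add, neg_add]
  rw [three_mul (cm ax (by decide +kernel) _ _).eq (cm ax (by decide +kernel) _ _).eq (cm ax (by decide +kernel) _ _).eq,
    xG_add, xG_add, xG_add]

lemma z_comm_y (s u : K) : Commute (x 23 s) (yG ax φ u) :=
  ((cm ax (by decide +kernel) _ _).mul_right (cm ax (by decide +kernel) _ _)).mul_right (cm ax (by decide +kernel) _ _)

lemma z_comm_w (s u : K) : Commute (x 23 s) (wG ax φ u) :=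
  ((cm ax (by decide +kernel) _ _).mul_right (cm ax (by decide +kernel) _ _)).mul_right (cm ax (by decide +kernel) _ _)

lemma z_comm_X (s u : K) : Commute (x 23 s) (XG ax φ u) :=
  ((cm ax (by decide +kernel) _ _).mul_right (cm ax (by decide +kernel) _ _)).mul_right (cm ax (by decide +kernel) _ _)

lemma z_comm_b (s u : K) : Commute (x 23 s) (x 14 u) := cm ax (by decide +kernel) _ _

lemma z_comm_r (s u : K) : Commute (x 23 s) (x 22 u) := cm ax (by decide +kernel) _ _

lemma b_comm_y (s u : K) : Commute (x 14 s) (yG ax φ u) :=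
  ((cm ax (by decide +kernel) _ _).mul_right (cm ax (by decide +kernel) _ _)).mul_right (cm ax (by decide +kernel) _ _)

lemma b_comm_w (s u : K) : Commute (x 14 s) (wG ax φ u) :=
  ((cm ax (by decide +kernel) _ _).mul_right (cm ax (by decide +kernel) _ _)).mul_right (cm ax (by decide +kernel) _ _)

lemma r_comm_y (s u : K) : Commute (x 22 s) (yG ax φ u) :=
  ((cm ax (by decide +kernel) _ _).mul_right (cm ax (by decide +kernel) _ _)).mul_right (cm ax (by decide +kernel) _ _)

lemma r_comm_w (s u : K) : Commute (x 22 s) (wG ax φ u) :=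
  ((cm ax (by decide +kernel) _ _).mul_right (cm ax (by decide +kernel) _ _)).mul_right (cm ax (by decide +kernel) _ _)

lemma b_r_rel (a d : K) : x 14 a * x 22 d * (x 14 a)⁻¹ = x 22 d * x 23 (a * d) := by
  have := conj_lt ax (r := 14) (s := 22) (m := 23) (c := 1) (by decide) (by decide) (by decide) (by decide +kernel)
    (by decide +kernel) (by decide +kernel) a d
  simpa using this

end Add

/-- The form on the radical. -/
noncomputable def Tf (u v : K) : K := u * φ v + φ u * φ (φ v) + φ (φ u) * v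

include ax in
lemma y_w_rel (u v : K) : yG ax φ u * wG ax φ v * (yG ax φ u)⁻¹ = wG ax φ v * x 23 (Tf φ u v) := by
  set P := x 21 v with hP
  set Q := x 17 (-φ v) with hQ
  set R := x 20 (φ (φ v)) with hR
  set A := x 19 u with hA
  set B := x 16 (-φ u) with hB
  set C := x 15 (-φ (φ u)) with hC
  set z₁ := x 23 (φ (φ u) * v) with hz₁
  set z₂ := x 23 (φ u * φ (φ v)) with hz₂
  set z₃ := x 23 (u * φ v) with hz₃
  have c1 : C * P * C⁻¹ = P * z₁ := by
    have := conj_lt ax (r := 15) (s := 21) (m := 23) (c := -1) (by decide) (by decide) (by decide) (by decide +kernel)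
      (by decide +kernel) (by decide +kernel) (-φ (φ u)) v
    rw [hC, hP, this, hz₁]
    congr 2
    push_cast
    ring
  have c2 : C * Q * C⁻¹ = Q := cj ax (by decide +kernel) _ _
  have c3 : C * R * C⁻¹ = R := cj ax (by decide +kernel) _ _
  have c4 : B * P * B⁻¹ = P := cj ax (by decide +kernel) _ _
  have c5 : B * Q * B⁻¹ = Q := cj ax (by decide +kernel) _ _
  have c6 : B * R * B⁻¹ = R * z₂ := by
    have := conj_lt ax (r := 16) (s := 20) (m := 23) (c := -1) (by decide) (by decide) (by decide) (by decide +kernel)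
      (by decide +kernel) (by decide +kernel) (-φ u) (φ (φ v))
    rw [hB, hR, this, hz₂]
    congr 2
    push_cast
    ring
  have c7 : B * z₁ * B⁻¹ = z₁ := cj ax (by decide +kernel) _ _
  have c8 : A * P * A⁻¹ = P := cj ax (by decide +kernel) _ _
  have c9 : A * Q * A⁻¹ = Q * z₃ := by
    have := conj_gt ax (r := 19) (s := 17) (m := 23) (c := 1) (by decide) (by decide) (by decide) (by decide +kernel)
      (by decide +kernel) (by decide +kernel) u (-φ v)
    rw [hA, hQ, this, hz₃]
    congr 2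
    push_cast
    ring
  have c10 : A * R * A⁻¹ = R := cj ax (by decide +kernel) _ _
  have c11 : A * z₁ * A⁻¹ = z₁ := cj ax (by decide +kernel) _ _
  have c12 : A * z₂ * A⁻¹ = z₂ := cj ax (by decide +kernel) _ _
  have e0 : yG ax φ u * wG ax φ v * (yG ax φ u)⁻¹ = A * (B * (C * (P * Q * R) * C⁻¹) * B⁻¹) * A⁻¹ := by
    simp only [yG, wG, ← hP, ← hQ, ← hR, ← hA, ← hB, ← hC]
    group
  rw [e0]
  simp only [conj_mul', c1, c2, c3, c4, c5, c6, c7, c8, c9, c10, c11, c12]
  have e1 : x 23 (Tf φ u v) = z₁ * z₂ * z₃ := by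
    rw [hz₁, hz₂, hz₃, xG_add, xG_add, Tf]
    congr 1
    ring
  have cz1 : z₁ * Q = Q * z₁ := (cm ax (by decide +kernel) _ _).eq
  have cz3 : z₃ * R = R * z₃ := (cm ax (by decide +kernel) _ _).eq
  have cz12 : z₂ * z₃ = z₃ * z₂ := by
    rw [hz₂, hz₃, xG_add, xG_add, add_comm]
  rw [e1]
  simp only [wG, ← hP, ← hQ, ← hR]
  calc P * z₁ * (Q * z₃) * (R * z₂) = P * (z₁ * Q) * (z₃ * R) * z₂ := by group
    _ = P * (Q * z₁) * (R * z₃) * z₂ := by rw [cz1, cz3]
    _ = P * Q * (z₁ * R) * z₃ * z₂ := by group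
    _ = P * Q * (R * z₁) * z₃ * z₂ := by rw [(show z₁ * R = R * z₁ from (cm ax (by decide +kernel) _ _).eq)]
    _ = P * Q * R * z₁ * (z₃ * z₂) := by group
    _ = _ := by rw [← cz12]; group

end Cfsg.Agent.Lib.MinD4.GLRel
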