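import Cfsg.Agent.Lib.MinD4.GLRel

/-!
The conjugation of the radical by the Levi factor of the parabolic of ³D₄.
-/

set_option autoImplicit false
set_option linter.unusedSectionVars false
set_option linter.unusedVariables false
set_option linter.ambiguousOpen false
set_option maxHeartbeats 1000000

namespace Cfsg.Agent.Lib.MinD4.GLRel

open scoped MatrixGroups Matrix
open Cfsg Lie ChevalleyDatum
open Cfsg.Agent.Lib.Chev
open Tables Tables2 Tables3 Raise Basic AxBasic Torus Products Products2 Mono1 Mono2 Mono3 Bn ChevSimple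
open Cfsg.Agent.Lib.Twisted.Fact Cfsg.Agent.Lib.Twisted.Bruhat Cfsg.Agent.Lib.Twisted.Tw
open Cfsg.Agent.Lib.Twisted.Struct Cfsg.Agent.Lib.Twisted.Check Cfsg.Agent.Lib.Twisted.Ortho
open Cfsg.Agent.Lib.GraphAut.Basic Cfsg.Agent.Lib.Twisted.Perf
open Cfsg.Agent.Lib.Twisted.D4

variable {K : Type*} [Field K] (ax : Ax chevD4 K) (φ : K ≃+* K)

local notation "x" => xG ax

include ax in
lemma X_b_rel (hφ3 : ∀ t, φ (φ (φ t)) = t) {a : K} (ha : φ a = a) (t : K) :
    XG ax φ t * x 14 a * (XG ax φ t)⁻¹ =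
      x 14 a * yG ax φ (-(a * t)) * wG ax φ (-(a * (t * φ t))) * x 22 (-(a * (t * φ t * φ (φ t)))) *
        x 23 (-(a * a * (t * φ t * φ (φ t)))) := by
  obtain ⟨t₂, ht₂⟩ : ∃ t₂, φ t = t₂ := ⟨_, rfl⟩
  obtain ⟨t₃, ht₃⟩ : ∃ t₃, φ t₂ = t₃ := ⟨_, rfl⟩
  have h3 : φ t₃ = t := by rw [← ht₃, ← ht₂]; exact hφ3 t
  have c1 : ∀ e, x 12 t₃ * x 14 e * (x 12 t₃)⁻¹ = x 14 e * x 15 (t₃ * e) := by
    intro e
    have := conj_lt ax (r := 12) (s := 14) (m := 15) (c := 1) (by decide) (by decide) (by decide) (by decide +kernel)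
      (by decide +kernel) (by decide +kernel) t₃ e
    simpa using this
  have c2 : ∀ e, x 13 t₂ * x 14 e * (x 13 t₂)⁻¹ = x 14 e * x 16 (t₂ * e) := by
    intro e
    have := conj_lt ax (r := 13) (s := 14) (m := 16) (c := 1) (by decide) (by decide) (by decide) (by decide +kernel)
      (by decide +kernel) (by decide +kernel) t₂ e
    simpa using this
  have c3 : ∀ e, x 13 t₂ * x 15 e * (x 13 t₂)⁻¹ = x 15 e * x 17 (t₂ * e) := by
    intro e
    have := conj_lt ax (r := 13) (s := 15) (m := 17) (c := 1) (by decide) (by decide) (by decide) (by decide +kernel)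
      (by decide +kernel) (by decide +kernel) t₂ e
    simpa using this
  have c4 : ∀ e, x 18 t * x 14 e * (x 18 t)⁻¹ = x 14 e * x 19 (-(e * t)) := by
    intro e
    have := conj_gt ax (r := 18) (s := 14) (m := 19) (c := 1) (by decide) (by decide) (by decide) (by decide +kernel)
      (by decide +kernel) (by decide +kernel) t e
    simpa using this
  have c5 : ∀ e, x 18 t * x 16 e * (x 18 t)⁻¹ = x 16 e * x 21 (-(e * t)) := by
    intro e
    have := conj_gt ax (r := 18) (s := 16) (m := 21) (c := 1) (by decide) (by decide) (by decide) (by decide +kernel)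
      (by decide +kernel) (by decide +kernel) t e
    simpa using this
  have c6 : ∀ e, x 18 t * x 15 e * (x 18 t)⁻¹ = x 15 e * x 20 (-(e * t)) := by
    intro e
    have := conj_gt ax (r := 18) (s := 15) (m := 20) (c := 1) (by decide) (by decide) (by decide) (by decide +kernel)
      (by decide +kernel) (by decide +kernel) t e
    simpa using this
  have c7 : ∀ e, x 18 t * x 17 e * (x 18 t)⁻¹ = x 17 e * x 22 (-(e * t)) := by
    intro e
    have := conj_gt ax (r := 18) (s := 17) (m := 22) (c := 1) (by decide) (by decide) (by decide) (by decide +kernel)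
      (by decide +kernel) (by decide +kernel) t e
    simpa using this
  have e0 : XG ax φ t * x 14 a * (XG ax φ t)⁻¹ =
      x 18 t * (x 13 t₂ * (x 12 t₃ * x 14 a * (x 12 t₃)⁻¹) * (x 13 t₂)⁻¹) * (x 18 t)⁻¹ := by
    simp only [XG, ht₂, ht₃]
    group
  rw [e0]
  simp only [conj_mul', c1, c2, c3, c4, c5, c6, c7]
  -- the right side
  have hφa : ∀ y, φ (a * y) = a * φ y := fun y => by rw [map_mul, ha]
  have e1 : yG ax φ (-(a * t)) = x 19 (-(a * t)) * x 16 (a * t₂) * x 15 (a * t₃) := by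
    simp only [yG, map_neg, hφa, neg_neg, ht₂, ht₃]
  have e2 : wG ax φ (-(a * (t * t₂))) = x 21 (-(a * (t * t₂))) * x 17 (a * (t₂ * t₃)) * x 20 (-(a * (t₃ * t))) := by
    simp only [wG, map_neg, hφa, map_mul, neg_neg, ht₂, ht₃, h3]
  rw [ht₂, ht₃, e1, e2]
  -- the swap
  have hsw : x 21 (-(t₂ * a * t)) * x 15 (t₃ * a) = x 15 (t₃ * a) * x 21 (-(t₂ * a * t)) * x 23 (-(a * a * (t * t₂ * t₃))) := by
    have := xG_comm ax (r := 15) (s := 21) (by decide) (by decide) (by decide) (by decide +kernel) (t₃ * a) (-(t₂ * a * t))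
    have ht : chevD4.commTerms 15 21 = [(23, -1, 1, 1)] := by decide +kernel
    simp only [commWord, ht, List.map_cons, List.map_nil, wordG_cons, wordG_nil, mul_one, pow_one] at this
    rw [this]
    congr 2
    push_cast
    ring
  have s1 : x 20 (-(t₃ * a * t)) * x 17 (t₂ * (t₃ * a)) = x 17 (t₂ * (t₃ * a)) * x 20 (-(t₃ * a * t)) :=
    ((cm ax (by decide +kernel) _ _).eq)
  have s2 : ∀ f g, x 23 f * x 20 g = x 20 g * x 23 f := fun f g => (cm ax (by decide +kernel) _ _).eq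
  have s3 : ∀ f g, x 23 f * x 17 g = x 17 g * x 23 f := fun f g => (cm ax (by decide +kernel) _ _).eq
  have s4 : ∀ f g, x 23 f * x 22 g = x 22 g * x 23 f := fun f g => (cm ax (by decide +kernel) _ _).eq
  have a2 : a * t₂ = t₂ * a := mul_comm _ _
  have a3 : a * t₃ = t₃ * a := mul_comm _ _
  have a4 : -(a * (t * t₂)) = -(t₂ * a * t) := by ring
  have a5 : a * (t₂ * t₃) = t₂ * (t₃ * a) := by ring
  have a6 : -(a * (t₃ * t)) = -(t₃ * a * t) := by ring
  have a7 : -(a * (t * t₂ * t₃)) = -(t₂ * (t₃ * a) * t) := by ring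
  rw [a4, a5, a6, a7, a2, a3]
  calc x 14 a * x 19 (-(a * t)) * (x 16 (t₂ * a) * x 21 (-(t₂ * a * t))) * (x 15 (t₃ * a) * x 20 (-(t₃ * a * t)) * (x 17 (t₂ * (t₃ * a)) * x 22 (-(t₂ * (t₃ * a) * t))))
      = x 14 a * x 19 (-(a * t)) * x 16 (t₂ * a) * (x 21 (-(t₂ * a * t)) * x 15 (t₃ * a)) * (x 20 (-(t₃ * a * t)) * x 17 (t₂ * (t₃ * a))) * x 22 (-(t₂ * (t₃ * a) * t)) := by
        simp only [mul_assoc]
    _ = x 14 a * x 19 (-(a * t)) * x 16 (t₂ * a) * (x 15 (t₃ * a) * x 21 (-(t₂ * a * t)) * x 23 (-(a * a * (t * t₂ * t₃)))) * (x 17 (t₂ * (t₃ * a)) * x 20 (-(t₃ * a * t))) * x 22 (-(t₂ * (t₃ * a) * t)) := by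
        rw [hsw, s1]
    _ = x 14 a * x 19 (-(a * t)) * x 16 (t₂ * a) * x 15 (t₃ * a) * x 21 (-(t₂ * a * t)) * (x 23 (-(a * a * (t * t₂ * t₃))) * x 17 (t₂ * (t₃ * a))) * x 20 (-(t₃ * a * t)) * x 22 (-(t₂ * (t₃ * a) * t)) := by
        simp only [mul_assoc]
    _ = x 14 a * x 19 (-(a * t)) * x 16 (t₂ * a) * x 15 (t₃ * a) * x 21 (-(t₂ * a * t)) * x 17 (t₂ * (t₃ * a)) * (x 23 (-(a * a * (t * t₂ * t₃))) * x 20 (-(t₃ * a * t))) * x 22 (-(t₂ * (t₃ * a) * t)) := by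
        rw [s3]; simp only [mul_assoc]
    _ = x 14 a * x 19 (-(a * t)) * x 16 (t₂ * a) * x 15 (t₃ * a) * x 21 (-(t₂ * a * t)) * x 17 (t₂ * (t₃ * a)) * x 20 (-(t₃ * a * t)) * (x 23 (-(a * a * (t * t₂ * t₃))) * x 22 (-(t₂ * (t₃ * a) * t))) := by
        rw [s2]; simp only [mul_assoc]
    _ = _ := by rw [s4]; simp only [mul_assoc]

section Torus

lemma hJ1 {c : Kˣ} (hc : Units.map (φ : K →* K) c = c) {s : ℕ} (hs : s < chevD4.nroots) {m : ℤ}
    (hm : pair chevD4 18 s + pair chevD4 13 s + pair chevD4 12 s + 2 * pair chevD4 14 s = m) (t : K) :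
    hJ ax φ c (c ^ 2) * x s t * (hJ ax φ c (c ^ 2))⁻¹ = x s (((c ^ m : Kˣ) : K) * t) := by
  rw [hJ_conj φ ax hs]
  congr 2
  rw [hc, hc, ← hm, zpow_add, zpow_add, zpow_add, zpow_mul, zpow_ofNat]

lemma hJ2 (d : Kˣ) {s : ℕ} (hs : s < chevD4.nroots) {m : ℤ} (hm : pair chevD4 14 s = m) (t : K) :
    hJ ax φ 1 d * x s t * (hJ ax φ 1 d)⁻¹ = x s (((d ^ m : Kˣ) : K) * t) := by
  rw [hJ_conj φ ax hs]
  congr 2
  simp [hm]

end Torus

section Weyl

lemma sG_conj {i s : ℕ} (hi : i < chevD4.rank) (hs : s < chevD4.nroots) :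
    ∃ η : ℤ, (η = 1 ∨ η = -1) ∧ ∀ t : K, sG ax i * x s t * (sG ax i)⁻¹ = x (chevD4.reflectRoot i s) ((η : K) * t) := by
  obtain ⟨η, hη, h1, -⟩ := ax.n_simple i s hi hs
  refine ⟨η, hη, fun t => ?_⟩
  rw [mul_inv_eq_iff_eq_mul]
  exact Units.ext (by simpa only [Units.val_mul, sG_val, xG_val] using h1 t)

/-- The element `n_β` on the root group of the root `22`. -/
lemma nβ_conj : ∃ η : ℤ, (η = 1 ∨ η = -1) ∧ ∀ t : K, nD ax 0 * x 22 t * (nD ax 0)⁻¹ = x 23 ((η : K) * t) := by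
  obtain ⟨η, hη, h⟩ := sG_conj ax (i := 1) (s := 22) (K := K) (by decide) (by decide)
  refine ⟨η, hη, fun t => ?_⟩
  have e : nD ax 0 = sG ax 1 := by
    show nw chevD4 ax [1] = _
    rw [nw_cons, nw_nil, mul_one]
  have e2 : chevD4.reflectRoot 1 22 = 23 := by decide +kernel
  rw [e, h, e2]

/-- Three reflections. -/
lemma three_conj {a b c d : ℕ} (h1 : chevD4.reflectRoot 3 a = b) (h2 : chevD4.reflectRoot 2 b = c)
    (h3 : chevD4.reflectRoot 0 c = d) (ha : a < chevD4.nroots) (hb : b < chevD4.nroots) (hc : c < chevD4.nroots) :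
    ∃ η : ℤ, (η = 1 ∨ η = -1) ∧ ∀ t : K, nD ax 1 * x a t * (nD ax 1)⁻¹ = x d ((η : K) * t) := by
  obtain ⟨η₁, hη₁, e1⟩ := sG_conj ax (i := 3) (s := a) (K := K) (by decide) ha
  obtain ⟨η₂, hη₂, e2⟩ := sG_conj ax (i := 2) (s := b) (K := K) (by decide) hb
  obtain ⟨η₃, hη₃, e3⟩ := sG_conj ax (i := 0) (s := c) (K := K) (by decide) hc
  refine ⟨η₃ * (η₂ * η₁), ?_, fun t => ?_⟩
  · rcases hη₁ with rfl | rfl <;> rcases hη₂ with rfl | rfl <;> rcases hη₃ with rfl | rfl <;> simp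
  · have e : nD ax 1 = sG ax 0 * (sG ax 2 * sG ax 3) := by
      show nw chevD4 ax [0, 2, 3] = _
      rw [nw_cons, nw_cons, nw_cons, nw_nil, mul_one]
    have e0 : nD ax 1 * x a t * (nD ax 1)⁻¹ =
        sG ax 0 * (sG ax 2 * (sG ax 3 * x a t * (sG ax 3)⁻¹) * (sG ax 2)⁻¹) * (sG ax 0)⁻¹ := by
      rw [e]; group
    rw [e0, e1, h1, e2, h2, e3, h3]
    congr 1
    push_cast
    ring

lemma nα_b_conj : ∃ η : ℤ, (η = 1 ∨ η = -1) ∧ ∀ t : K, nD ax 1 * x 14 t * (nD ax 1)⁻¹ = x 22 ((η : K) * t) :=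
  three_conj ax (b := 15) (c := 17) (by decide +kernel) (by decide +kernel) (by decide +kernel) (by decide) (by decide) (by decide)

lemma nα_z_conj : ∃ η : ℤ, (η = 1 ∨ η = -1) ∧ ∀ t : K, nD ax 1 * x 23 t * (nD ax 1)⁻¹ = x 23 ((η : K) * t) :=
  three_conj ax (b := 23) (c := 23) (by decide +kernel) (by decide +kernel) (by decide +kernel) (by decide) (by decide) (by decide)

end Weyl

section Mem

variable {q : ℕ} (hφ : ∀ t, φ t = t ^ q) (hφ3 : ∀ t, φ (φ (φ t)) = t)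

lemma s_x_neg {r r' : ℕ} (hr : r < chevD4.nroots) (hρ : Sd.ρ r = r') (hγ : Sd.γ r = -1) (t : K) :
    (twD φ ax).s (x r t) = x r' (-φ t) := by
  have := (twD φ ax).s_x ⟨r, hr⟩ t
  simp only at this
  rw [this]
  show xG ax (Sd.ρ r) (((Sd.γ r : ℤ) : K) * φ t) = _
  rw [hρ, hγ]
  simp

include hφ hφ3

lemma z_mem {s : K} (hs : φ s = s) : x 23 s ∈ twistedD4 K q :=
  fixed_mem φ hφ hφ3 ax (by decide) (by decide +kernel) (by decide +kernel) (Or.inl (by decide +kernel)) (by rw [← hφ, hs])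

lemma r_mem {s : K} (hs : φ s = s) : x 22 s ∈ twistedD4 K q :=
  fixed_mem φ hφ hφ3 ax (by decide) (by decide +kernel) (by decide +kernel) (Or.inl (by decide +kernel)) (by rw [← hφ, hs])

lemma b_mem {s : K} (hs : φ s = s) : x 14 s ∈ twistedD4 K q :=
  fixed_mem φ hφ hφ3 ax (by decide) (by decide +kernel) (by decide +kernel) (Or.inl (by decide +kernel)) (by rw [← hφ, hs])

lemma X_mem (t : K) : XG ax φ t ∈ twistedD4 K q := by
  have := mem_triple (q := q) ax (rs := (18, 13, 12)) (by decide) t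
  simp only at this
  rw [pow_qq φ hφ hφ3, ← hφ] at this
  exact this

lemma y_mem (u : K) : yG ax φ u ∈ twistedD4 K q := by
  have hm : ∀ r t, chevD4.IsPosRoot r → x r t ∈ chevD4.group K := fun r t hr => xG_mem_group ax hr.1 t
  have hp19 : chevD4.IsPosRoot 19 := by decide +kernel
  have hp16 : chevD4.IsPosRoot 16 := by decide +kernel
  have hp15 : chevD4.IsPosRoot 15 := by decide +kernel
  refine (TD4 φ hφ hφ3 ax).U_fix hD2 (Subgroup.mul_mem _ (Subgroup.mul_mem _ (xG_mem_U ax hp19 _) (xG_mem_U ax hp16 _)) (xG_mem_U ax hp15 _)) ?_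
  simp only [yG]
  rw [(twD φ ax).s_mul _ (Subgroup.mul_mem _ (hm _ _ hp19) (hm _ _ hp16)) _ (hm _ _ hp15),
    (twD φ ax).s_mul _ (hm _ _ hp19) _ (hm _ _ hp16),
    s_x_neg ax φ (r := 19) (r' := 16) (by decide) (by decide +kernel) (by decide +kernel),
    s_xD φ ax (r := 16) (r' := 15) (by decide) (by decide +kernel) (by decide +kernel),
    s_x_neg ax φ (r := 15) (r' := 19) (by decide) (by decide +kernel) (by decide +kernel)]
  simp only [map_neg, neg_neg, hφ3]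
  have c1 : x 15 (-φ (φ u)) * x 19 u = x 19 u * x 15 (-φ (φ u)) := (cm ax (by decide +kernel) _ _).eq
  have c2 : x 16 (-φ u) * x 19 u = x 19 u * x 16 (-φ u) := (cm ax (by decide +kernel) _ _).eq
  calc x 16 (-φ u) * x 15 (-φ (φ u)) * x 19 u = x 16 (-φ u) * (x 15 (-φ (φ u)) * x 19 u) := by simp only [mul_assoc]
    _ = (x 16 (-φ u) * x 19 u) * x 15 (-φ (φ u)) := by rw [c1]; simp only [mul_assoc]
    _ = _ := by rw [c2]

lemma w_mem (u : K) : wG ax φ u ∈ twistedD4 K q := by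
  have hm : ∀ r t, chevD4.IsPosRoot r → x r t ∈ chevD4.group K := fun r t hr => xG_mem_group ax hr.1 t
  have hp21 : chevD4.IsPosRoot 21 := by decide +kernel
  have hp17 : chevD4.IsPosRoot 17 := by decide +kernel
  have hp20 : chevD4.IsPosRoot 20 := by decide +kernel
  refine (TD4 φ hφ hφ3 ax).U_fix hD2 (Subgroup.mul_mem _ (Subgroup.mul_mem _ (xG_mem_U ax hp21 _) (xG_mem_U ax hp17 _)) (xG_mem_U ax hp20 _)) ?_
  simp only [wG]
  rw [(twD φ ax).s_mul _ (Subgroup.mul_mem _ (hm _ _ hp21) (hm _ _ hp17)) _ (hm _ _ hp20),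
    (twD φ ax).s_mul _ (hm _ _ hp21) _ (hm _ _ hp17),
    s_x_neg ax φ (r := 21) (r' := 17) (by decide) (by decide +kernel) (by decide +kernel),
    s_x_neg ax φ (r := 17) (r' := 20) (by decide) (by decide +kernel) (by decide +kernel),
    s_xD φ ax (r := 20) (r' := 21) (by decide) (by decide +kernel) (by decide +kernel)]
  simp only [map_neg, neg_neg, hφ3]
  have c1 : x 20 (φ (φ u)) * x 21 u = x 21 u * x 20 (φ (φ u)) := (cm ax (by decide +kernel) _ _).eq
  have c2 : x 17 (-φ u) * x 21 u = x 21 u * x 17 (-φ u) := (cm ax (by decide +kernel) _ _).eq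
  calc x 17 (-φ u) * x 20 (φ (φ u)) * x 21 u = x 17 (-φ u) * (x 20 (φ (φ u)) * x 21 u) := by simp only [mul_assoc]
    _ = (x 17 (-φ u) * x 21 u) * x 20 (φ (φ u)) := by rw [c1]; simp only [mul_assoc]
    _ = _ := by rw [c2]

end Mem

end Cfsg.Agent.Lib.MinD4.GLRel
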