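import Cfsg.Agent.Lib.MinD4.GLRel2
import Cfsg.Agent.Lib.MinD4.Abs3

/-!
The relations of `Abs.Rel` in ³D₄.
-/

set_option autoImplicit false
set_option linter.unusedSectionVars false
set_option linter.unusedVariables false
set_option linter.ambiguousOpen false
set_option maxHeartbeats 1000000

namespace Cfsg.Agent.Lib.MinD4.Inst

open scoped MatrixGroups Matrix
open Cfsg Lie ChevalleyDatum
open Cfsg.Agent.Lib.Chev
open Tables Tables2 Tables3 Raise Basic AxBasic Torus Products Products2 Mono1 Mono2 Mono3 Bn ChevSimple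
open Cfsg.Agent.Lib.Twisted.Fact Cfsg.Agent.Lib.Twisted.Bruhat Cfsg.Agent.Lib.Twisted.Tw
open Cfsg.Agent.Lib.Twisted.Struct Cfsg.Agent.Lib.Twisted.Check Cfsg.Agent.Lib.Twisted.Ortho
open Cfsg.Agent.Lib.GraphAut.Basic Cfsg.Agent.Lib.Twisted.Perf
open Cfsg.Agent.Lib.Twisted.D4 Cfsg.Agent.Lib.MinD4.GLRel Cfsg.Agent.Lib.MinD4.Abs

variable {K : Type*} [Field K]

/-- The fixed field. -/
def kS (φ : K ≃+* K) : Subfield K := (φ : K →+* K).eqLocusField (RingHom.id K)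

lemma mem_kS {φ : K ≃+* K} {x : K} : x ∈ kS φ ↔ φ x = x := Iff.rfl

variable (ax : Ax chevD4 K) (φ : K ≃+* K) {q : ℕ} (hφ : ∀ t, φ t = t ^ q) (hφ3 : ∀ t, φ (φ (φ t)) = t)

local notation "x" => xG ax

lemma φ_sub (s : kS φ) : φ (s : K) = s := s.2

/-- The norm. -/
noncomputable def Nm (t : K) : kS φ := ⟨t * φ t * φ (φ t), by
  rw [mem_kS, map_mul, map_mul, hφ3]
  ring⟩

/-- The form. -/
noncomputable def Tm (u v : K) : kS φ := ⟨Tf φ u v, by
  rw [mem_kS]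
  simp only [Tf, map_add, map_mul, hφ3]
  ring⟩

/-- The Frobenius map as a linear map. -/
noncomputable def φL : K →ₗ[kS φ] K where
  toFun := φ
  map_add' := map_add φ
  map_smul' := fun c y => by
    show φ ((c : K) * y) = (c : K) * φ y
    rw [map_mul, φ_sub]

@[simp] lemma φL_apply (y : K) : φL φ y = φ y := rfl

/-- The units of the fixed field in `K`. -/
def uK (c : (kS φ)ˣ) : Kˣ := Units.map ((kS φ).subtype : kS φ →* K) c

@[simp] lemma uK_val (c : (kS φ)ˣ) : ((uK φ c : Kˣ) : K) = ((c : kS φ) : K) := rfl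

lemma uK_fix (c : (kS φ)ˣ) : Units.map (φ : K →* K) (uK φ c) = uK φ c := by
  apply Units.ext
  show φ _ = _
  exact φ_sub φ _

include hφ hφ3

/-- The elements in `G`. -/
noncomputable def zE (s : kS φ) : ↥(twistedD4 K q) := ⟨x 23 s, z_mem ax φ hφ hφ3 s.2⟩
noncomputable def rE (s : kS φ) : ↥(twistedD4 K q) := ⟨x 22 s, r_mem ax φ hφ hφ3 s.2⟩
noncomputable def bE (s : kS φ) : ↥(twistedD4 K q) := ⟨x 14 s, b_mem ax φ hφ hφ3 s.2⟩
noncomputable def yE (u : K) : ↥(twistedD4 K q) := ⟨yG ax φ u, y_mem ax φ hφ hφ3 u⟩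
noncomputable def wE (u : K) : ↥(twistedD4 K q) := ⟨wG ax φ u, w_mem ax φ hφ hφ3 u⟩
noncomputable def XE (u : K) : ↥(twistedD4 K q) := ⟨XG ax φ u, X_mem ax φ hφ hφ3 u⟩

noncomputable def h1E (c : (kS φ)ˣ) : ↥(twistedD4 K q) := ⟨hJ ax φ (uK φ c) (uK φ c ^ 2), hJ_mem φ hφ hφ3 ax _ _ (by
  rw [← hφ, Units.val_pow_eq_pow_val, map_pow, uK_val, φ_sub])⟩

noncomputable def h2E (c : (kS φ)ˣ) : ↥(twistedD4 K q) := ⟨hJ ax φ 1 (uK φ c), hJ_mem φ hφ hφ3 ax _ _ (by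
  rw [← hφ, uK_val, φ_sub])⟩

noncomputable def nαE : ↥(twistedD4 K q) := ⟨nD ax 1, n_mem φ hφ hφ3 ax 1⟩
noncomputable def nβE : ↥(twistedD4 K q) := ⟨nD ax 0, n_mem φ hφ hφ3 ax 0⟩

/-- A sign as a unit of the fixed field. -/
noncomputable def signU (η : ℤ) (hη : η = 1 ∨ η = -1) : (kS φ)ˣ :=
  Units.mk0 (η : kS φ) (by
    rcases hη with rfl | rfl <;> simp)

omit hφ hφ3 in
lemma signU_val (η : ℤ) (hη : η = 1 ∨ η = -1) (s : kS φ) :
    (((signU φ η hη : (kS φ)ˣ) : kS φ) * s : kS φ) = (((η : K) * (s : K) : K)) := by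
  simp [signU]

theorem rel :
    ∃ εα εz εβ : (kS φ)ˣ, Abs.Rel (⇑(φL φ)) (Nm φ hφ3) (Tm φ hφ3)
      (zE ax φ hφ hφ3) (rE ax φ hφ hφ3) (bE ax φ hφ hφ3) (yE ax φ hφ hφ3) (wE ax φ hφ hφ3) (XE ax φ hφ hφ3)
      (h1E ax φ hφ hφ3) (h2E ax φ hφ hφ3) (nαE ax φ hφ hφ3) (nβE ax φ hφ hφ3) εα εz εβ := by
  obtain ⟨η₁, hη₁, e₁⟩ := nα_b_conj ax (K := K)
  obtain ⟨η₂, hη₂, e₂⟩ := nα_z_conj ax (K := K)
  obtain ⟨η₃, hη₃, e₃⟩ := nβ_conj ax (K := K)
  refine ⟨signU φ η₁ hη₁, signU φ η₂ hη₂, signU φ η₃ hη₃, ?_⟩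
  refine
    { z_add := ?_, r_add := ?_, b_add := ?_, y_add := ?_, w_add := ?_, z_b := ?_, z_y := ?_, z_w := ?_, z_r := ?_, z_X := ?_,
      b_y := ?_, b_w := ?_, y_r := ?_, w_r := ?_, b_r := ?_, y_w := ?_, h1_b := ?_, h1_y := ?_, h1_w := ?_, h1_r := ?_,
      h1_z := ?_, h2_z := ?_, h2_r := ?_, h2_w := ?_, X_b := ?_, nα_b := ?_, nα_z := ?_, nβ_r := ?_ }
  · intro s s'
    apply Subtype.ext
    show x 23 ((s : K) + s') = x 23 s * x 23 s'
    rw [xG_add]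
  · intro s s'
    apply Subtype.ext
    show x 22 ((s : K) + s') = x 22 s * x 22 s'
    rw [xG_add]
  · intro s s'
    apply Subtype.ext
    show x 14 ((s : K) + s') = x 14 s * x 14 s'
    rw [xG_add]
  · intro s s'
    exact Subtype.ext (yG_add ax φ s s')
  · intro s s'
    exact Subtype.ext (wG_add ax φ s s')
  · intro s a
    exact Subtype.ext (z_comm_b ax _ _).eq
  · intro s a
    exact Subtype.ext (z_comm_y ax φ _ _).eq
  · intro s a
    exact Subtype.ext (z_comm_w ax φ _ _).eq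
  · intro s a
    exact Subtype.ext (z_comm_r ax _ _).eq
  · intro s a
    exact Subtype.ext (z_comm_X ax φ _ _).eq
  · intro s a
    exact Subtype.ext (b_comm_y ax φ _ _).eq
  · intro s a
    exact Subtype.ext (b_comm_w ax φ _ _).eq
  · intro s a
    exact Subtype.ext (r_comm_y ax φ _ _).symm.eq
  · intro s a
    exact Subtype.ext (r_comm_w ax φ _ _).symm.eq
  · intro a d
    exact Subtype.ext (b_r_rel ax _ _)
  · intro u v
    exact Subtype.ext (y_w_rel ax φ u v)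
  · intro c a
    apply Subtype.ext
    show hJ ax φ (uK φ c) (uK φ c ^ 2) * x 14 a * (hJ ax φ (uK φ c) (uK φ c ^ 2))⁻¹ = x 14 ((c : kS φ) * a : kS φ)
    rw [hJ1 ax φ (uK_fix φ c) (s := 14) (m := 1) (by decide) (by decide +kernel)]
    simp
  · intro c u
    apply Subtype.ext
    show hJ ax φ (uK φ c) (uK φ c ^ 2) * yG ax φ u * (hJ ax φ (uK φ c) (uK φ c ^ 2))⁻¹ = yG ax φ ((c : kS φ) • u)
    simp only [yG, conj_mul']
    rw [hJ1 ax φ (uK_fix φ c) (s := 19) (m := 1) (by decide) (by decide +kernel),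
      hJ1 ax φ (uK_fix φ c) (s := 16) (m := 1) (by decide) (by decide +kernel),
      hJ1 ax φ (uK_fix φ c) (s := 15) (m := 1) (by decide) (by decide +kernel)]
    have hs : ∀ y : K, (c : kS φ) • y = ((c : kS φ) : K) * y := fun y => rfl
    simp only [zpow_one, uK_val, hs, map_mul, φ_sub, mul_neg]
  · intro c u
    apply Subtype.ext
    show hJ ax φ (uK φ c) (uK φ c ^ 2) * wG ax φ u * (hJ ax φ (uK φ c) (uK φ c ^ 2))⁻¹ = wG ax φ ((c : kS φ) • u)
    simp only [wG, conj_mul']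
    rw [hJ1 ax φ (uK_fix φ c) (s := 21) (m := 1) (by decide) (by decide +kernel),
      hJ1 ax φ (uK_fix φ c) (s := 17) (m := 1) (by decide) (by decide +kernel),
      hJ1 ax φ (uK_fix φ c) (s := 20) (m := 1) (by decide) (by decide +kernel)]
    have hs : ∀ y : K, (c : kS φ) • y = ((c : kS φ) : K) * y := fun y => rfl
    simp only [zpow_one, uK_val, hs, map_mul, φ_sub, mul_neg]
  · intro c a
    apply Subtype.ext
    show hJ ax φ (uK φ c) (uK φ c ^ 2) * x 22 a * (hJ ax φ (uK φ c) (uK φ c ^ 2))⁻¹ = x 22 ((c : kS φ) * a : kS φ)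
    rw [hJ1 ax φ (uK_fix φ c) (s := 22) (m := 1) (by decide) (by decide +kernel)]
    simp
  · intro c a
    apply Subtype.ext
    show hJ ax φ (uK φ c) (uK φ c ^ 2) * x 23 a * (hJ ax φ (uK φ c) (uK φ c ^ 2))⁻¹ = x 23 (((c : kS φ) ^ 2 * a : kS φ))
    rw [hJ1 ax φ (uK_fix φ c) (s := 23) (m := 2) (by decide) (by decide +kernel)]
    simp [zpow_ofNat]
  · intro c a
    apply Subtype.ext
    show hJ ax φ 1 (uK φ c) * x 23 a * (hJ ax φ 1 (uK φ c))⁻¹ = x 23 ((c : kS φ) * a : kS φ)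
    rw [hJ2 ax φ _ (s := 23) (m := 1) (by decide) (by decide +kernel)]
    simp
  · intro c a
    apply Subtype.ext
    show hJ ax φ 1 (uK φ c) * x 22 a * (hJ ax φ 1 (uK φ c))⁻¹ = x 22 ((c : kS φ)⁻¹ * a : kS φ)
    rw [hJ2 ax φ _ (s := 22) (m := -1) (by decide) (by decide +kernel)]
    simp
  · intro c v
    apply Subtype.ext
    show hJ ax φ 1 (uK φ c) * wG ax φ v = wG ax φ v * hJ ax φ 1 (uK φ c)
    rw [← mul_inv_eq_iff_eq_mul]
    simp only [wG, conj_mul']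
    rw [hJ2 ax φ _ (s := 21) (m := 0) (by decide) (by decide +kernel),
      hJ2 ax φ _ (s := 17) (m := 0) (by decide) (by decide +kernel),
      hJ2 ax φ _ (s := 20) (m := 0) (by decide) (by decide +kernel)]
    simp
  · intro t a
    refine ⟨-(a * a * Nm φ hφ3 t), ?_⟩
    apply Subtype.ext
    have h := X_b_rel ax φ hφ3 (φ_sub φ a) t
    exact h
  · intro a
    apply Subtype.ext
    show nD ax 1 * x 14 a * (nD ax 1)⁻¹ = x 22 _
    rw [e₁, signU_val]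
  · intro a
    apply Subtype.ext
    show nD ax 1 * x 23 a * (nD ax 1)⁻¹ = x 23 _
    rw [e₂, signU_val]
  · intro a
    apply Subtype.ext
    show nD ax 0 * x 22 a * (nD ax 0)⁻¹ = x 23 _
    rw [e₃, signU_val]

end Cfsg.Agent.Lib.MinD4.Inst
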