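import Mathlib

/-!
The numerical part of the degree bound for ³D₄.
-/

set_option autoImplicit false

namespace Cfsg.Agent.Lib.MinD4.Num

/-- The integer `q⁴ + q³ + 1` does not divide the order of ³D₄. -/
theorem not_dvd (q : ℕ) (hq : 2 ≤ q) :
    ¬ (q ^ 4 + q ^ 3 + 1) ∣ q ^ 12 * (q ^ 2 - 1) * (q ^ 6 - 1) * (q ^ 8 + q ^ 4 + 1) := by
  intro h
  have h1 : 1 ≤ q ^ 2 := Nat.one_le_pow _ _ (by omega)
  have h6 : 1 ≤ q ^ 6 := Nat.one_le_pow _ _ (by omega)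
  have hZ : ((q : ℤ) ^ 4 + (q : ℤ) ^ 3 + 1) ∣ (q : ℤ) ^ 12 * ((q : ℤ) ^ 2 - 1) * ((q : ℤ) ^ 6 - 1) * ((q : ℤ) ^ 8 + (q : ℤ) ^ 4 + 1) := by
    have := Int.natCast_dvd_natCast.mpr h
    push_cast [Nat.cast_sub h1, Nat.cast_sub h6] at this
    exact this
  set z : ℤ := (q : ℤ) with hz
  set F : ℤ := z ^ 4 + z ^ 3 + 1 with hF
  have e1 : (3 : ℤ) ≡ (-1 - z - z ^ 2 + z ^ 3) * (z ^ 2 - 1) [ZMOD F] := by
    refine Int.modEq_iff_dvd.mpr ⟨-(2 - z), ?_⟩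
    rw [hF]; ring
  have e2 : (9 : ℤ) ≡ (-7 - z + 5 * z ^ 2 + 4 * z ^ 3) * (z ^ 6 - 1) [ZMOD F] := by
    refine Int.modEq_iff_dvd.mpr ⟨-(2 - z + 5 * z ^ 2 + 2 * z ^ 3 - z ^ 4 - 4 * z ^ 5), ?_⟩
    rw [hF]; ring
  have e3 : (3 : ℤ) ≡ (2 + 2 * z - z ^ 2 - 2 * z ^ 3) * (z ^ 8 + z ^ 4 + 1) [ZMOD F] := by
    refine Int.modEq_iff_dvd.mpr ⟨-(1 - 2 * z + z ^ 2 + z ^ 3 - z ^ 4 - z ^ 5 - z ^ 6 + 2 * z ^ 7), ?_⟩
    rw [hF]; ring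
  have e4 : (1 : ℤ) ≡ z * (-(z ^ 3 + z ^ 2)) [ZMOD F] := by
    refine Int.modEq_iff_dvd.mpr ⟨-1, ?_⟩
    rw [hF]; ring
  have e5 := ((e1.mul e2).mul e3).mul (e4.pow 12)
  have e6 : ((-1 - z - z ^ 2 + z ^ 3) * (z ^ 2 - 1) * ((-7 - z + 5 * z ^ 2 + 4 * z ^ 3) * (z ^ 6 - 1)) *
      ((2 + 2 * z - z ^ 2 - 2 * z ^ 3) * (z ^ 8 + z ^ 4 + 1)) * (z * (-(z ^ 3 + z ^ 2))) ^ 12) =
      (z ^ 12 * (z ^ 2 - 1) * (z ^ 6 - 1) * (z ^ 8 + z ^ 4 + 1)) *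
        ((-1 - z - z ^ 2 + z ^ 3) * (-7 - z + 5 * z ^ 2 + 4 * z ^ 3) * (2 + 2 * z - z ^ 2 - 2 * z ^ 3) * (-(z ^ 3 + z ^ 2)) ^ 12) := by
    ring
  rw [e6] at e5
  have h81 : F ∣ 81 := by
    have h7 : F ∣ (z ^ 12 * (z ^ 2 - 1) * (z ^ 6 - 1) * (z ^ 8 + z ^ 4 + 1)) *
        ((-1 - z - z ^ 2 + z ^ 3) * (-7 - z + 5 * z ^ 2 + 4 * z ^ 3) * (2 + 2 * z - z ^ 2 - 2 * z ^ 3) * (-(z ^ 3 + z ^ 2)) ^ 12) :=
      Dvd.dvd.mul_right hZ _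
    have h8 := (Int.modEq_zero_iff_dvd.mpr h7)
    have h9 := Int.modEq_zero_iff_dvd.mp (e5.trans h8)
    norm_num at h9
    exact h9
  have hN : (q ^ 4 + q ^ 3 + 1) ∣ 81 := by
    have : (((q ^ 4 + q ^ 3 + 1 : ℕ) : ℤ)) ∣ ((81 : ℕ) : ℤ) := by
      push_cast
      exact h81
    exact Int.natCast_dvd_natCast.mp this
  have hle := Nat.le_of_dvd (by norm_num) hN
  have hq3 : q ≤ 2 := by
    by_contra hc
    have : 3 ≤ q := by omega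
    have h3 : 3 ^ 4 ≤ q ^ 4 := Nat.pow_le_pow_left this 4
    have h4 : 3 ^ 3 ≤ q ^ 3 := Nat.pow_le_pow_left this 3
    omega
  have : q = 2 := by omega
  subst this
  norm_num at hN

/-- The numerical conclusion. -/
theorem num (q dim n₀ D : ℕ) (hq : 2 ≤ q) (h1 : dim + q * n₀ = (q + 1) * D)
    (h2 : D + (q - 1) * (q * q ^ 3) ≤ dim) (h3 : q - 1 ≤ n₀)
    (hdvd : dim ∣ q ^ 12 * (q ^ 2 - 1) * (q ^ 6 - 1) * (q ^ 8 + q ^ 4 + 1)) :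
    q * (q ^ 4 - q ^ 2 + 1) ≤ dim := by
  obtain ⟨p, rfl⟩ : ∃ p, q = p + 1 := ⟨q - 1, by omega⟩
  have hp : 1 ≤ p := by omega
  simp only [Nat.add_sub_cancel] at h2 h3
  have e4 : (p + 1) ^ 4 - (p + 1) ^ 2 + 1 = p * (p + 2) * (p + 1) ^ 2 + 1 := by
    have : (p + 1) ^ 4 = p * (p + 2) * (p + 1) ^ 2 + (p + 1) ^ 2 := by ring
    rw [this]
    simp
  rw [e4]
  -- `q (dim - n₀) = (q + 1) X`
  obtain ⟨X, hX⟩ : ∃ X, dim = D + X := ⟨dim - D, by omega⟩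
  have hXge : p * ((p + 1) * (p + 1) ^ 3) ≤ X := by omega
  subst hX
  have hn : n₀ ≤ D + X := by
    by_contra hc
    have h4 : D + X + 1 ≤ n₀ := by omega
    have h5 : (p + 1) * (D + X + 1) ≤ (p + 1) * n₀ := Nat.mul_le_mul_left _ h4
    nlinarith
  have hq : (p + 1) * (D + X - n₀) = (p + 2) * X := by
    obtain ⟨Y, hY⟩ : ∃ Y, D + X = n₀ + Y := ⟨D + X - n₀, by omega⟩
    have e : D + X - n₀ = Y := by omega
    rw [e]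
    have e2 : D = n₀ + Y - X := by omega
    nlinarith
  have hdv : (p + 1) ∣ X := by
    have h5 : (p + 1) ∣ (p + 2) * X := ⟨_, hq.symm⟩
    have h6 : Nat.Coprime (p + 1) (p + 2) := by
      have : p + 2 = (p + 1) + 1 := rfl
      rw [this]
      simp
    exact h6.dvd_of_dvd_mul_left h5
  obtain ⟨f, rfl⟩ := hdv
  have hY : D + (p + 1) * f - n₀ = (p + 2) * f := by
    have : (p + 1) * (D + (p + 1) * f - n₀) = (p + 1) * ((p + 2) * f) := by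
      rw [hq]; ring
    exact Nat.eq_of_mul_eq_mul_left (by omega) this
  have hf : p * (p + 1) ^ 3 ≤ f := by
    have : (p + 1) * (p * (p + 1) ^ 3) ≤ (p + 1) * f := by
      calc (p + 1) * (p * (p + 1) ^ 3) = p * ((p + 1) * (p + 1) ^ 3) := by ring
        _ ≤ _ := hXge
    exact Nat.le_of_mul_le_mul_left this (by omega)
  have hd : D + (p + 1) * f = n₀ + (p + 2) * f := by omega
  rw [hd]
  rcases Nat.lt_or_ge (p * (p + 1) ^ 3) f with hlt | hge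
  · have h7 : (p + 2) * (p * (p + 1) ^ 3 + 1) ≤ (p + 2) * f := Nat.mul_le_mul_left _ hlt
    have e : (p + 1) * (p * (p + 2) * (p + 1) ^ 2 + 1) = (p + 2) * (p * (p + 1) ^ 3 + 1) - 1 := by
      have : (p + 2) * (p * (p + 1) ^ 3 + 1) = (p + 1) * (p * (p + 2) * (p + 1) ^ 2 + 1) + 1 := by ring
      omega
    omega
  · have hfe : f = p * (p + 1) ^ 3 := le_antisymm hge hf
    subst hfe
    have e : (p + 1) * (p * (p + 2) * (p + 1) ^ 2 + 1) = (p + 2) * (p * (p + 1) ^ 3) + (p + 1) := by ring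
    rw [e]
    rcases Nat.lt_or_ge p n₀ with h8 | h8
    · omega
    · exfalso
      have h9 : n₀ = p := le_antisymm h8 h3
      subst h9
      have hk : D + (n₀ + 1) * (n₀ * (n₀ + 1) ^ 3) = n₀ * ((n₀ + 1) ^ 4 + (n₀ + 1) ^ 3 + 1) := by
        rw [hd]; ring
      rw [hk] at hdvd
      exact not_dvd (n₀ + 1) (by omega) (dvd_trans (Dvd.intro_left _ rfl) hdvd)

end Cfsg.Agent.Lib.MinD4.Num
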