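import Cfsg.Agent.Lib.MinD4.Inst
import Cfsg.Agent.Lib.MinD4.Num
import Cfsg.Agent.Lib.Char.Central

/-!
The minimal degree of ³D₄(q).
-/

set_option autoImplicit false
set_option linter.unusedSectionVars false
set_option linter.unusedVariables false
set_option linter.ambiguousOpen false
set_option maxHeartbeats 1000000

namespace Cfsg.Agent.Lib.MinD4.Main

open scoped MatrixGroups Matrix
open Module
open Cfsg Lie ChevalleyDatum
open Cfsg.Agent.Lib.Chev
open Tables Tables2 Tables3 Raise Basic AxBasic Torus Products Products2 Mono1 Mono2 Mono3 Bn ChevSimple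
open Cfsg.Agent.Lib.Twisted.Fact Cfsg.Agent.Lib.Twisted.Bruhat Cfsg.Agent.Lib.Twisted.Tw
open Cfsg.Agent.Lib.Twisted.Struct Cfsg.Agent.Lib.Twisted.Check Cfsg.Agent.Lib.Twisted.Ortho
open Cfsg.Agent.Lib.GraphAut.Basic Cfsg.Agent.Lib.Twisted.Perf
open Cfsg.Agent.Lib.Twisted.D4 Cfsg.Agent.Lib.MinD4.GLRel Cfsg.Agent.Lib.MinD4.Abs Cfsg.Agent.Lib.MinD4.Inst
open scoped _root_.Classical

variable {K : Type*} [Field K] [Fintype K]

/-- The trace does not vanish identically. -/
lemma exists_trace_ne (φ : K ≃+* K) {q : ℕ} (hq2 : 2 ≤ q) (hφ : ∀ t, φ t = t ^ q) (hK : Fintype.card K = q ^ 3) :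
    ∃ y : K, y + φ y + φ (φ y) ≠ 0 := by
  by_contra hc
  push Not at hc
  let P : Polynomial K := Polynomial.X ^ (q ^ 2) + (Polynomial.X ^ q + Polynomial.X)
  have hlt : q < q ^ 2 := by nlinarith
  have hdeg2 : (Polynomial.X ^ q + Polynomial.X : Polynomial K).natDegree < q ^ 2 := by
    calc (Polynomial.X ^ q + Polynomial.X : Polynomial K).natDegree
        ≤ max (Polynomial.X ^ q : Polynomial K).natDegree (Polynomial.X : Polynomial K).natDegree := Polynomial.natDegree_add_le _ _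
      _ ≤ q := by simp; omega
      _ < _ := hlt
  have hdeg : P.natDegree = q ^ 2 := by
    rw [Polynomial.natDegree_add_eq_left_of_natDegree_lt (by simpa using hdeg2)]
    simp
  have hP0 : P ≠ 0 := by
    intro h
    rw [h] at hdeg
    simp at hdeg
    omega
  have hroots : ∀ y : K, y ∈ P.roots := by
    intro y
    rw [Polynomial.mem_roots hP0, Polynomial.IsRoot.def]
    simp only [P, Polynomial.eval_add, Polynomial.eval_pow, Polynomial.eval_X]
    have := hc y
    rw [hφ, hφ, ← pow_mul, ← pow_two] at this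
    linear_combination this
  have h1 : (Finset.univ : Finset K).val ≤ P.roots := by
    rw [Multiset.le_iff_subset Finset.univ.nodup]
    intro y _
    exact hroots y
  have h2 := Multiset.card_le_card h1
  have h3 := Polynomial.card_roots' P
  rw [Finset.card_val, Finset.card_univ, hK] at h2
  rw [hdeg] at h3
  have h4 : q ^ 2 < q ^ 3 := Nat.pow_lt_pow_right (by omega) (by norm_num)
  omega

/-- The bound for irreducible representations of ³D₄. -/
theorem bound {q : ℕ} (hq : IsPrimePow q) (hK : Fintype.card K = q ^ 3)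
    {V : Type*} [AddCommGroup V] [Module ℂ V] [FiniteDimensional ℂ V]
    (ρ : Representation ℂ ↥(twistedD4 K q) V) [hirr : ρ.IsIrreducible] (hnt : ∃ g, ρ g ≠ 1) :
    q * (q ^ 4 - q ^ 2 + 1) ≤ finrank ℂ V := by
  obtain ⟨φ, hφ, hφ3⟩ := exists_φ hq hK
  have ax : Ax chevD4 K := Cfsg.Agent.Lib.Lie.AxOf.ax_of_mem hmemD4
  have hq2 := hq.two_le
  obtain ⟨εα, εz, εβ, R⟩ := rel ax φ hφ hφ3
  let _ : Fintype (kS φ) := Fintype.ofFinite _
  haveI : FiniteDimensional (kS φ) K := Module.Finite.of_finite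
  have hcard : Fintype.card (kS φ) = q := by
    have h1 := Cfsg.Agent.Lib.Twisted.Ortho.card_fix hq2 (by norm_num : (3 : ℕ) ≠ 0) hK
    rw [← h1, ← Nat.card_eq_fintype_card]
    refine Nat.card_congr (Equiv.subtypeEquivRight fun t => ?_)
    rw [mem_kS, hφ]
  have hfr : finrank (kS φ) K = 3 := by
    have h1 := Module.card_eq_pow_finrank (K := kS φ) (V := K)
    rw [hK, hcard] at h1
    exact (Nat.pow_right_injective hq2 h1).symm
  have hN : ∀ t, algebraMap (kS φ) K (Nm φ hφ3 t) = t * φL φ t * φL φ (φL φ t) := fun t => rfl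
  have hN0 : ∀ t, t ≠ 0 → Nm φ hφ3 t ≠ 0 := by
    intro t ht h
    have h1 : ((Nm φ hφ3 t : kS φ) : K) = 0 := by rw [h]; rfl
    have h2 : t * φ t * φ (φ t) = 0 := h1
    have h3 : φ t ≠ 0 := (map_ne_zero φ).mpr ht
    have h4 : φ (φ t) ≠ 0 := (map_ne_zero φ).mpr h3
    exact (mul_ne_zero (mul_ne_zero ht h3) h4) h2
  have hT_add : ∀ u u' v, Tm φ hφ3 (u + u') v = Tm φ hφ3 u v + Tm φ hφ3 u' v := by
    intro u u' v
    apply Subtype.ext
    show Tf φ (u + u') v = Tf φ u v + Tf φ u' v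
    simp only [Tf, map_add]
    ring
  have hT0 : ∀ u, Tm φ hφ3 u 0 = 0 := by
    intro u
    apply Subtype.ext
    show Tf φ u 0 = 0
    simp [Tf]
  have hT_surj : ∀ u, u ≠ 0 → ∀ s, ∃ v, Tm φ hφ3 u v = s := by
    intro u hu s
    obtain ⟨y, hy⟩ := exists_trace_ne φ hq2 hφ hK
    set tr := y + φ y + φ (φ y) with htr
    have htr' : φ tr = tr := by
      simp only [htr, map_add, hφ3]
      ring
    set c : K := (s : K) / tr with hc
    have hcφ : φ c = c := by
      rw [hc, map_div₀, htr', φ_sub]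
    refine ⟨φ.symm (c * y / u), ?_⟩
    apply Subtype.ext
    show Tf φ u (φ.symm (c * y / u)) = s
    have e1 : φ (φ.symm (c * y / u)) = c * y / u := φ.apply_symm_apply _
    have hu1 : φ u ≠ 0 := (map_ne_zero φ).mpr hu
    have hu2 : φ (φ u) ≠ 0 := (map_ne_zero φ).mpr hu1
    have e2 : φ.symm (c * y / u) = φ (φ (c * y / u)) := by
      apply φ.injective
      rw [e1]
      exact (hφ3 _).symm
    simp only [Tf]
    rw [e1, e2, map_div₀, map_mul, hcφ, map_div₀, map_mul, hcφ]
    have e4 : (s : K) = c * tr := by rw [hc]; field_simp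
    rw [e4, htr]
    field_simp
  -- the group is simple and the representation faithful
  have hsimple := (Cfsg.Agent.Lib.Twisted.D4S.simple_D4 hq hK).1
  have hfaith : MonoidHom.ker ρ = ⊥ := by
    rcases hsimple.eq_bot_or_eq_top_of_normal (MonoidHom.ker ρ) inferInstance with h | h
    · exact h
    · exfalso
      obtain ⟨g, hg⟩ := hnt
      exact hg (MonoidHom.mem_ker.mp (h ▸ Subgroup.mem_top g))
  have hz : ρ (zE ax φ hφ hφ3 1) ≠ 1 := by
    intro h
    have h1 : zE ax φ hφ hφ3 1 ∈ MonoidHom.ker ρ := MonoidHom.mem_ker.mpr h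
    rw [hfaith, Subgroup.mem_bot] at h1
    have h2 : xG ax 23 (((1 : kS φ) : K)) = 1 := congrArg Subtype.val h1
    exact xG_ne_one hD hD2 ax (by decide) (one_ne_zero) h2
  have hid := trace_identity ρ R
  have hle := D_add_le ρ R hz hT_add hT0 hT_surj
  rw [Fintype.card_prod, Fintype.card_prod, Fintype.card_units, hK, hcard] at hle
  rw [hcard] at hid
  have hpos : 1 ≤ (q - 1) * (q * q ^ 3) := by
    have h1 : 1 ≤ q - 1 := by omega
    have h2 : 1 ≤ q ^ 3 := Nat.one_le_pow _ _ (by omega)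
    exact Nat.mul_pos h1 (Nat.mul_pos (by omega) h2)
  have hd : ∃ (d : kS φ) (v : V), v ∈ Cz ρ (zE ax φ hφ hφ3) ∧ ρ (rE ax φ hφ hφ3 d) v ≠ v := by
    by_contra hc
    push Not at hc
    have hsub : Cz ρ (zE ax φ hφ hφ3) ≤ Cz2 ρ (rE ax φ hφ hφ3) (zE ax φ hφ hφ3) := by
      intro v hv p
      show ρ (rE ax φ hφ hφ3 p.1 * zE ax φ hφ hφ3 p.2) v = v
      rw [map_mul, Module.End.mul_apply]
      have h1 : ρ (zE ax φ hφ hφ3 p.2) v = v := hv p.2
      rw [h1]
      exact hc p.1 v hv
    have h5 := Submodule.finrank_mono hsub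
    have h6 : q * finrank ℂ (Cz ρ (zE ax φ hφ hφ3)) ≤ q * finrank ℂ (Cz2 ρ (rE ax φ hφ hφ3) (zE ax φ hφ hφ3)) :=
      Nat.mul_le_mul_left _ h5
    nlinarith
  have h3 := card_units_le ρ R hfr hN hN0 hd
  rw [Fintype.card_units, hcard] at h3
  have hdvd := Cfsg.Agent.Lib.Char.Central.finrank_dvd_card ρ
  rw [Cfsg.Agent.Lib.Twisted.D4O.card_D4 hq hK] at hdvd
  exact Cfsg.Agent.Lib.MinD4.Num.num q _ _ _ hq2 hid hle h3 hdvd

/-- An irreducible representation of dimension at least two is nontrivial. -/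
theorem exists_ne_one {G : Type*} [Group G] {k : ℕ} (ρ : Representation ℂ G (Fin k → ℂ)) (hirr : ρ.IsIrreducible)
    (hk : 2 ≤ k) : ∃ g, ρ g ≠ 1 := by
  by_contra hcon
  push Not at hcon
  let e0 : Fin k → ℂ := Pi.single ⟨0, by omega⟩ 1
  have he0 : e0 ≠ 0 := by
    intro h
    have := congrFun h ⟨0, by omega⟩
    simp [e0] at this
  let L : Subrepresentation ρ := ⟨Submodule.span ℂ {e0}, fun g v hv => by
    rw [hcon g]; simpa using hv⟩
  have hL := hirr.eq_bot_or_eq_top L
  rcases hL with hL | hL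
  · have h1 : L.toSubmodule = ⊥ := congrArg Subrepresentation.toSubmodule hL
    have h2 : e0 ∈ L.toSubmodule := Submodule.mem_span_singleton_self e0
    rw [h1, Submodule.mem_bot] at h2
    exact he0 h2
  · have h1 : L.toSubmodule = ⊤ := congrArg Subrepresentation.toSubmodule hL
    have h2 : Module.finrank ℂ L.toSubmodule = 1 := finrank_span_singleton he0
    rw [h1, finrank_top] at h2
    simp at h2
    omega

end Cfsg.Agent.Lib.MinD4.Main
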