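import Cfsg.Agent.Lib.WtSpace.Basic

/-!
Weight vectors of a finite abelian group: fixed spaces and traces, independence of weight vectors
with different weights, the existence of a weight vector with a weight moving a given element.
-/

set_option autoImplicit false
set_option linter.unusedSectionVars false
set_option linter.unusedVariables false

namespace Cfsg.Agent.Lib.MinD4.Weight

open Module Cfsg.Agent.Lib.WtSpace.Basic
open scoped _root_.Classical

variable {A : Type*} [AddCommGroup A] [Fintype A]
variable {V : Type*} [AddCommGroup V] [Module ℂ V] [FiniteDimensional ℂ V]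

noncomputable instance : Fintype (AddChar A ℂ) := Fintype.ofFinite _

/-- The pairing of all characters. -/
lemma pairing_addChar : Pairing (fun (χ : AddChar A ℂ) (a : A) => χ a) where
  add := fun χ a b => AddChar.map_add_eq_mul χ a b
  zero := fun χ => AddChar.map_zero_eq_one χ
  orth := fun a ha => by
    rw [AddChar.sum_apply_eq_ite]
    simp [ha]
  card := AddChar.card_eq

/-- The fixed space of a family of operators. -/
def fixS (τ : A → Module.End ℂ V) : Submodule ℂ V where
  carrier := {v | ∀ a, τ a v = v}
  add_mem' := fun {x y} hx hy a => by rw [map_add, hx a, hy a]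
  zero_mem' := fun a => map_zero _
  smul_mem' := fun c x hx a => by rw [map_smul, hx a]

lemma mem_fixS {τ : A → Module.End ℂ V} {v : V} : v ∈ fixS τ ↔ ∀ a, τ a v = v := Iff.rfl

variable {τ : A → Module.End ℂ V} (hτ : ∀ a b, τ (a + b) = τ a * τ b) (hτ0 : τ 0 = 1)

include hτ hτ0

/-- The dimension of the fixed space is the mean of the traces. -/
theorem card_mul_finrank_fix :
    (Fintype.card A : ℂ) * (finrank ℂ (fixS τ) : ℂ) = ∑ a, LinearMap.trace ℂ V (τ a) := by
  have hp := pairing_addChar (A := A)
  set e := ee (fun (χ : AddChar A ℂ) (a : A) => χ a) τ (0 : AddChar A ℂ) with he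
  have h1 : LinearMap.range e = fixS τ := by
    ext v
    rw [he, mem_range_ee hp hτ hτ0, mem_fixS]
    refine forall_congr' fun c => ?_
    simp
  have h2 := trace_ee hp hτ hτ0 (0 : AddChar A ℂ)
  rw [← he, h1] at h2
  rw [← h2, he, ee]
  have hc : (Fintype.card A : ℂ) ≠ 0 := by exact_mod_cast Fintype.card_ne_zero
  simp only [map_smul, map_sum, smul_eq_mul]
  have h5 : ∀ a : A, (0 : AddChar A ℂ) (-a) = 1 := fun a => by simp
  simp only [h5, one_mul]
  rw [← mul_assoc, mul_inv_cancel₀ hc, one_mul]

/-- Weight vectors with different weights are independent. -/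
theorem li_of_weights {ι : Type*} (v : ι → V) (f : ι → A → ℂ) (hv : ∀ i a, τ a (v i) = f i a • v i)
    (h0 : ∀ i, v i ≠ 0) (hne : ∀ i j, i ≠ j → ∃ a, f i a ≠ f j a) : LinearIndependent ℂ v := by
  have hadd : ∀ i a b, f i (a + b) = f i a * f i b := by
    intro i a b
    have h1 : τ (a + b) (v i) = f i (a + b) • v i := hv i _
    have h2 : τ (a + b) (v i) = (f i a * f i b) • v i := by
      rw [hτ, Module.End.mul_apply, hv i b, map_smul, hv i a, smul_smul, mul_comm]
    rw [h1] at h2
    exact smul_left_injective ℂ (h0 i) h2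
  have hz : ∀ i, f i 0 = 1 := by
    intro i
    have h1 : τ 0 (v i) = f i 0 • v i := hv i _
    rw [hτ0, Module.End.one_apply] at h1
    have h2 : (1 : ℂ) • v i = f i 0 • v i := by rw [one_smul]; exact h1
    exact (smul_left_injective ℂ (h0 i) h2).symm
  let χ : ι → AddChar A ℂ := fun i =>
    { toFun := f i
      map_zero_eq_one' := hz i
      map_add_eq_mul' := hadd i }
  have hχ : Function.Injective χ := by
    intro i j hij
    by_contra hn
    obtain ⟨a, ha⟩ := hne i j hn
    exact ha (congrArg (fun c : AddChar A ℂ => c a) hij)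
  have hli : LinearIndependent ℂ (fun i => ((χ i : AddChar A ℂ) : A → ℂ)) :=
    (AddChar.linearIndependent A ℂ).comp χ hχ
  rw [linearIndependent_iff'] at hli ⊢
  intro s g hg i hi
  by_contra hgi
  obtain ⟨l, hl⟩ : ∃ l : Module.Dual ℂ V, l (v i) ≠ 0 := by
    by_contra hc
    push Not at hc
    exact h0 i ((Module.forall_dual_apply_eq_zero_iff ℂ (v i)).mp hc)
  have h2 := hli s (fun j => g j * l (v j)) (by
    funext a
    have h3 := congrArg (fun u => l (τ a u)) hg
    simp only [map_sum, map_smul, hv, map_zero, smul_eq_mul] at h3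
    simp only [Finset.sum_apply, Pi.smul_apply, smul_eq_mul, Pi.zero_apply]
    rw [← h3]
    refine Finset.sum_congr rfl fun j _ => ?_
    show g j * l (v j) * f j a = g j * (f j a * l (v j))
    ring) i hi
  simp only [mul_eq_zero, hgi, hl, or_self] at h2

/-- A weight vector with a weight moving a given element. -/
theorem exists_weight (a₀ : A) (hne : τ a₀ ≠ 1) :
    ∃ (v : V) (χ : AddChar A ℂ), v ≠ 0 ∧ (∀ a, τ a v = χ a • v) ∧ χ a₀ ≠ 1 := by
  have hp := pairing_addChar (A := A)
  obtain ⟨x, hx⟩ : ∃ x, τ a₀ x ≠ x := by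
    by_contra hc
    push Not at hc
    exact hne (LinearMap.ext fun x => by simpa using hc x)
  set p := (fun (χ : AddChar A ℂ) (a : A) => χ a) with hpdef
  have hs := sum_ee (τ := τ) hp hτ hτ0
  have hw : ∀ χ c, τ c (ee p τ χ x) = χ c • ee p τ χ x := by
    intro χ c
    have := LinearMap.congr_fun (tau_mul_ee hp hτ hτ0 c χ) x
    simpa using this
  by_contra hc
  push Not at hc
  apply hx
  have h1 : x = ∑ χ, ee p τ χ x := by
    have := LinearMap.congr_fun hs x
    simpa using this.symm
  rw [h1, map_sum]
  refine Finset.sum_congr rfl fun χ _ => ?_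
  by_cases h0 : ee p τ χ x = 0
  · rw [h0, map_zero]
  · have := hc (ee p τ χ x) χ h0 (hw χ)
    rw [hw χ a₀, this, one_smul]

end Cfsg.Agent.Lib.MinD4.Weight
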